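import Mathlib
import Cfsg.Agent.Lib.Thompson.QuaternionSection

/-!
Central extensions of the alternating group of degree four with a single involution.
-/

set_option autoImplicit false

namespace Cfsg.Agent.Lib.ZassSL25

open Subgroup

/-- Generators of the alternating group of degree four. -/
theorem alt_four_facts : ∃ a c : alternatingGroup (Fin 4),
    a * a = 1 ∧ a ≠ 1 ∧ c * c * c = 1 ∧ a * (c * a * c⁻¹) * a⁻¹ * (c * a * c⁻¹)⁻¹ = 1 ∧
      a * (c * a * c⁻¹) ≠ 1 ∧ c * (c * a * c⁻¹) * c⁻¹ = a * (c * a * c⁻¹) ∧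
      ∀ x : alternatingGroup (Fin 4), ∃ i : Fin 2, ∃ j : Fin 2, ∃ k : Fin 3,
        x = a ^ (i : ℕ) * (c * a * c⁻¹) ^ (j : ℕ) * c ^ (k : ℕ) := by
  decide +kernel

/-- The alternating group of degree four has trivial centre. -/
theorem alt_four_center : ∀ x : alternatingGroup (Fin 4), (∀ y, x * y = y * x) → x = 1 := by decide +kernel

/-- A central extension of the alternating group of degree four by a group of order twice an integer prime to
six, with a single involution, contains a copy of SL(2,3) that complements the part of order prime to six. -/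
theorem sl23_of_alt_four {G : Type*} [Group G] [Finite G] (f : G →* alternatingGroup (Fin 4))
    (hf : Function.Surjective f) (hN : f.ker ≤ center G) {k : ℕ} (hk : Nat.card f.ker = 2 * k)
    (hk2 : Odd k) (hk3 : ¬ 3 ∣ k) (huniq : ∀ s t : G, orderOf s = 2 → orderOf t = 2 → s = t) :
    ∃ H : Subgroup G, Nat.card H = 24 ∧ Nonempty (H ≃* Matrix.SpecialLinearGroup (Fin 2) (ZMod 3)) := by
  classical
  haveI : Fact (Nat.Prime 2) := ⟨Nat.prime_two⟩
  have hcomm : ∀ w ∈ f.ker, ∀ g : G, Commute w g := fun w hw g => (mem_center_iff.1 (hN hw) g).symm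
  obtain ⟨z0, hz0⟩ := exists_prime_orderOf_dvd_card' (G := f.ker) 2 (hk ▸ dvd_mul_right 2 k)
  set z : G := z0.1 with hzdef
  have hzN : z ∈ f.ker := z0.2
  have hzo : orderOf z = 2 := by rw [hzdef, Subgroup.orderOf_coe, hz0]
  have hzz : z * z = 1 := by rw [← pow_two, ← hzo]; exact pow_orderOf_eq_one z
  have hsmall : ∀ w : G, w * w = 1 → w = 1 ∨ w = z := fun w hw => by
    by_cases h : w = 1
    · exact Or.inl h
    · exact Or.inr (huniq _ _ (orderOf_eq_prime (by rw [pow_two, hw]) h) hzo)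
  have hpow : ∀ w ∈ f.ker, w ^ (2 * k) = 1 := fun w hw => by
    have := congrArg Subtype.val (pow_card_eq_one' (x := (⟨w, hw⟩ : f.ker)))
    rwa [hk] at this
  obtain ⟨a, c, ha2, ha1, hc3, hab, hab1, hcb, hall⟩ := alt_four_facts
  obtain ⟨i0, hi0⟩ := hf a
  obtain ⟨t0, ht0⟩ := hf c
  set i := i0 ^ k with hidef
  have hia : f i = a := by
    obtain ⟨l, hl⟩ := hk2
    rw [hidef, map_pow, hi0, hl, pow_succ, pow_mul, pow_two, ha2, one_pow, one_mul]
  have hi2N : i0 * i0 ∈ f.ker := by rw [MonoidHom.mem_ker, map_mul, hi0, ha2]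
  have hii : i * i = z := by
    have h1 : i * i = (i0 * i0) ^ k := ((Commute.refl i0).mul_pow k).symm
    refine (hsmall (i * i) ?_).resolve_left fun h => ?_
    · rw [h1, ← pow_add, ← two_mul, hpow _ hi2N]
    · rcases hsmall i h with e | e
      · rw [e, map_one] at hia; exact ha1 hia.symm
      · rw [e, show f z = 1 from hzN] at hia; exact ha1 hia.symm
  set t := t0 ^ (4 * k * k) with htdef
  have ht3N : t0 ^ 3 ∈ f.ker := by
    rw [MonoidHom.mem_ker, map_pow, ht0, pow_succ, pow_two, hc3]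
  have htt : t ^ 3 = 1 := by
    rw [htdef, ← pow_mul, show 4 * k * k * 3 = 3 * (2 * k) * (2 * k) by ring, pow_mul t0 (3 * (2 * k)),
      pow_mul t0 3, hpow _ ht3N, one_pow]
  have htc : f t = c := by
    have hmod : 4 * k * k % 3 = 1 := by
      have : k % 3 = 1 ∨ k % 3 = 2 := by omega
      rcases this with e | e <;> simp [Nat.mul_mod, e]
    rw [htdef, map_pow, ht0, pow_eq_pow_mod _ (show c ^ 3 = 1 by rw [pow_succ, pow_two, hc3]), hmod, pow_one]
  obtain ⟨j, hjdef⟩ : ∃ j, j = t * i * t⁻¹ := ⟨_, rfl⟩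
  have hjb : f j = c * a * c⁻¹ := by rw [hjdef, map_mul, map_mul, map_inv, htc, hia]
  have hzc : ∀ g, Commute z g := hcomm z hzN
  have hjj : j * j = z := by
    rw [hjdef, show t * i * t⁻¹ * (t * i * t⁻¹) = t * (i * i) * t⁻¹ by group, hii, ← (hzc t).eq,
      mul_inv_cancel_right]
  have hcN : i * j * i⁻¹ * j⁻¹ ∈ f.ker := by
    rw [MonoidHom.mem_ker, map_mul, map_mul, map_mul, map_inv, map_inv, hia, hjb, hab]
  have hii' : i⁻¹ = i * z := inv_eq_of_mul_eq_one_right (by rw [← mul_assoc, hii, hzz])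
  have hij : i * j * i⁻¹ * j⁻¹ = z := by
    refine (hsmall _ ?_).resolve_left fun h => ?_
    · have h1 := hcomm _ hcN
      set w := i * j * i⁻¹ * j⁻¹
      have h2 : i * j * i⁻¹ = w * j := by simp [w]
      have h3 : i * (j * j) * i⁻¹ = (w * j) * (w * j) := by rw [← h2]; group
      rw [hjj, ← (hzc i).eq, mul_inv_cancel_right, mul_assoc w j, ← mul_assoc j w, ← (h1 j).eq, mul_assoc w j,
        ← mul_assoc w w, hjj] at h3
      exact mul_right_cancel (h3.symm.trans (one_mul z).symm)
    · have h1 : i * j = j * i := by rwa [mul_inv_eq_one, mul_inv_eq_iff_eq_mul] at h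
      have h2 : (i * j) * (i * j) = 1 := by
        rw [show i * j * (i * j) = i * (j * i) * j by group, ← h1, show i * (i * j) * j = i * i * (j * j) by group, hii, hjj, hzz]
      rcases hsmall _ h2 with e | e
      · have := congrArg f e
        rw [map_mul, hia, hjb, map_one] at this
        exact hab1 this
      · have := congrArg f e
        rw [map_mul, hia, hjb, show f z = 1 from hzN] at this
        exact hab1 this
  have hji : j * i * j⁻¹ * i⁻¹ = z := by
    rw [show j * i * j⁻¹ * i⁻¹ = (i * j * i⁻¹ * j⁻¹)⁻¹ by group, hij]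
    exact inv_eq_of_mul_eq_one_right hzz
  have hijij : (i * j) * (i * j) = z := by
    have h1 : i * j = z * (j * i) := by rw [← hij]; group
    calc i * j * (i * j) = z * (j * i) * (i * j) := by rw [← h1]
      _ = z * (j * (i * i) * j) := by group
      _ = z * ((j * z) * j) := by rw [hii]
      _ = z * (z * (j * j)) := by rw [← (hzc j).eq, mul_assoc]
      _ = z := by rw [hjj, hzz, mul_one]
  -- correct the lift so that the cube of the twist is the product
  obtain ⟨i', j', hi'a, hj'b, hi'i', hj'j', hi'j', hj'i', hti', htj'⟩ :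
      ∃ i' j' : G, f i' = a ∧ f j' = c * a * c⁻¹ ∧ i' * i' = z ∧ j' * j' = z ∧ i' * j' * i'⁻¹ * j'⁻¹ = z ∧
        j' * i' * j'⁻¹ * i'⁻¹ = z ∧ t * i' * t⁻¹ = j' ∧ t * j' * t⁻¹ = i' * j' := by
    have hwN : (i * j)⁻¹ * (t * j * t⁻¹) ∈ f.ker := by
      simp only [MonoidHom.mem_ker, map_mul, map_inv, htc, hia, hjb, hcb, inv_mul_cancel]
    set w := (i * j)⁻¹ * (t * j * t⁻¹)
    have hw : t * j * t⁻¹ = i * j * w := (mul_inv_cancel_left (i * j) _).symm
    have hw2 : w * w = 1 := by
      have h1 : (i * j * w) * (i * j * w) = z := by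
        rw [← hw, show t * j * t⁻¹ * (t * j * t⁻¹) = t * (j * j) * t⁻¹ by group, hjj, ← (hzc t).eq,
          mul_inv_cancel_right]
      rw [mul_assoc (i * j) w, ← mul_assoc w (i * j), (hcomm w hwN (i * j)).eq, mul_assoc (i * j) w,
        ← mul_assoc (i * j) (i * j), hijij] at h1
      exact mul_left_cancel (h1.trans (mul_one z).symm)
    rcases hsmall w hw2 with e | e
    · exact ⟨i, j, hia, hjb, hii, hjj, hij, hji, hjdef.symm, by rw [hw, e, mul_one]⟩
    · have hfz : f z = 1 := hzN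
      have hsq : ∀ x : G, x * x = z → x * z * (x * z) = z := fun x hx => by
        rw [mul_assoc, ← mul_assoc z, (hzc x).eq, mul_assoc x z, hzz, mul_one, hx]
      have htw : ∀ x y : G, x * z * (y * z) * (x * z)⁻¹ * (y * z)⁻¹ = x * y * x⁻¹ * y⁻¹ := fun x y => by
        calc x * z * (y * z) * (x * z)⁻¹ * (y * z)⁻¹ = x * (z * y) * x⁻¹ * (z⁻¹ * y⁻¹) := by group
          _ = x * y * (z * x⁻¹) * (z⁻¹ * y⁻¹) := by rw [(hzc y).eq]; group
          _ = x * y * x⁻¹ * y⁻¹ := by rw [(hzc x⁻¹).eq]; group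
      refine ⟨i * z, j * z, by rw [map_mul, hfz, mul_one, hia], by rw [map_mul, hfz, mul_one, hjb], hsq i hii,
        hsq j hjj, (htw i j).trans hij, (htw j i).trans hji, ?_, ?_⟩
      · rw [hjdef, show t * (i * z) * t⁻¹ = t * i * (z * t⁻¹) by group, (hzc t⁻¹).eq, ← mul_assoc]
      · rw [show t * (j * z) * t⁻¹ = t * j * (z * t⁻¹) by group, (hzc t⁻¹).eq, ← mul_assoc, hw, e,
          show i * z * (j * z) = i * (z * j) * z by group, (hzc j).eq]
        group
  set H := closure ({i', j', t} : Set G)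
  have hiH : i' ∈ H := subset_closure (Or.inl rfl)
  have hjH : j' ∈ H := subset_closure (Or.inr (Or.inl rfl))
  have htH : t ∈ H := subset_closure (Or.inr (Or.inr rfl))
  have hzH : z ∈ H := hi'i' ▸ mul_mem hiH hiH
  -- the centre is the kernel
  have hcen : center G = f.ker := le_antisymm (fun x hx => MonoidHom.mem_ker.2 (alt_four_center _ fun y => by
    obtain ⟨g, rfl⟩ := hf y
    rw [← map_mul, ← map_mul, mem_center_iff.1 hx g])) hN
  have hindex : (center G).index = 12 := by
    rw [hcen, Subgroup.index_ker, MonoidHom.range_eq_top.2 hf, card_top, Nat.card_eq_fintype_card]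
    decide +kernel
  have htwelve : H ≤ (MonoidHom.transferCenterPow G).ker := by
    rw [closure_le]
    have hi12 : ∀ x : G, x * x = z → x ^ (center G).index = 1 := fun x hx => by
      rw [hindex, show (12 : ℕ) = 2 * 2 * 3 from rfl, pow_mul, pow_mul, pow_two x, hx, pow_two z, hzz, one_pow]
    rintro x (rfl | rfl | rfl) <;> refine MonoidHom.mem_ker.2 (Subtype.ext ?_)
    · exact hi12 _ hi'i'
    · exact hi12 _ hj'j'
    · show t ^ (center G).index = 1
      rw [hindex, show (12 : ℕ) = 3 * 4 from rfl, pow_mul, htt, one_pow]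
  have hinter : ∀ x ∈ H, x ∈ f.ker → x = 1 ∨ x = z := fun x hx hxN => by
    refine hsmall x ?_
    have h12 : x ^ 12 = 1 := hindex ▸ congrArg Subtype.val (MonoidHom.mem_ker.1 (htwelve hx))
    have h1 : orderOf x ∣ Nat.gcd 12 (2 * k) :=
      Nat.dvd_gcd (orderOf_dvd_of_pow_eq_one h12) (orderOf_dvd_of_pow_eq_one (hpow x hxN))
    have hgcd : Nat.gcd 12 (2 * k) = 2 := by
      rw [show (12 : ℕ) = 2 * 6 from rfl, Nat.gcd_mul_left]
      suffices Nat.Coprime 6 k by rw [this.gcd_eq_one, mul_one]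
      rw [show (6 : ℕ) = 2 * 3 from rfl]
      exact Nat.Coprime.mul_left (Nat.coprime_two_left.2 hk2) (Nat.prime_three.coprime_iff_not_dvd.2 hk3)
    rw [← pow_two]
    exact orderOf_dvd_iff_pow_eq_one.1 (hgcd ▸ h1)
  let g : H →* alternatingGroup (Fin 4) := f.comp H.subtype
  have hg : Function.Surjective g := fun x => by
    obtain ⟨p, r, s, rfl⟩ := hall x
    refine ⟨⟨i' ^ (p : ℕ) * j' ^ (r : ℕ) * t ^ (s : ℕ),
      mul_mem (mul_mem (pow_mem hiH _) (pow_mem hjH _)) (pow_mem htH _)⟩, ?_⟩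
    show f (i' ^ (p : ℕ) * j' ^ (r : ℕ) * t ^ (s : ℕ)) = _
    simp only [map_mul, map_pow, hi'a, hj'b, htc]
  have hkcard : Nat.card g.ker = 2 := by
    have e : g.ker = zpowers (⟨z, hzH⟩ : H) := by
      refine le_antisymm (fun x hx => ?_) (zpowers_le.2 hzN)
      rcases hinter x x.2 hx with h | h
      · rw [show x = 1 from Subtype.ext h]; exact one_mem _
      · rw [show x = ⟨z, hzH⟩ from Subtype.ext h]; exact mem_zpowers _
    rw [e, Nat.card_zpowers, orderOf_mk, hzo]
  have hH : Nat.card H = 24 := by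
    rw [← Subgroup.card_mul_index g.ker, hkcard, Subgroup.index_ker, MonoidHom.range_eq_top.2 hg, card_top,
      Nat.card_eq_fintype_card]
    decide +kernel
  refine ⟨H, hH, Thompson.Quat.iso_SL23 hH (i := ⟨i', hiH⟩) (j := ⟨j', hjH⟩) (t := ⟨t, htH⟩) ?_ ?_ ?_ ?_ ?_ ?_ ?_ ?_
    ?_⟩
  · exact Subtype.ext (show (i' * i') ^ 2 = 1 by rw [hi'i', pow_two, hzz])
  · exact fun x => Subtype.ext (show i' * i' * x = x * (i' * i') by rw [hi'i', (hzc x).eq])
  · exact Subtype.ext (hj'j'.trans hi'i'.symm)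
  · exact Subtype.ext (hi'j'.trans hi'i'.symm)
  · exact Subtype.ext (hj'i'.trans hi'i'.symm)
  · exact Subtype.ext htt
  · exact Subtype.ext hti'
  · exact Subtype.ext htj'
  · have := closure_closure_coe_preimage (k := ({i', j', t} : Set G))
    convert this using 2
    ext x
    simp [Subtype.ext_iff]

end Cfsg.Agent.Lib.ZassSL25
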