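import Mathlib
import Cfsg.Agent.Lib.ZassSL25.SixTypes

/-!
The automorphism group of a solvable group with a fixed-point-free character is solvable.
-/

set_option autoImplicit false

namespace Cfsg.Agent.Lib.ZassSL25

open Subgroup

universe u v w

variable {A : Type w} [Group A] (hA : commutator A = ⊤)

include hA in
/-- A perfect group fixing a solvable subgroup pointwise and moving every element within it acts trivially. -/
theorem perfect_trivial_of_displacement {H : Type u} [Group H] (K : Subgroup H) [Group.IsSolvable K]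
    (φ : A →* MulAut H) (hK : ∀ a, ∀ k ∈ K, φ a k = k) (hd : ∀ a h, h * (φ a h)⁻¹ ∈ K) :
    ∀ a h, φ a h = h := by
  intro a h
  let d : A →* K :=
    { toFun := fun x => ⟨h * (φ x h)⁻¹, hd x h⟩
      map_one' := Subtype.ext (by show h * (φ 1 h)⁻¹ = 1; rw [map_one, MulAut.one_apply, mul_inv_cancel])
      map_mul' := fun x y => Subtype.ext (by
        show h * (φ (x * y) h)⁻¹ = h * (φ x h)⁻¹ * (h * (φ y h)⁻¹)
        have e := hK x _ (hd y h)
        rw [map_mul, map_inv] at e
        rw [map_mul φ, MulAut.mul_apply, ← e]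
        group) }
  have h1 : h * (φ a h)⁻¹ = 1 := congrArg Subtype.val (map_eq_one_of_perfect hA d a)
  exact (mul_inv_eq_one.1 h1).symm

theorem isSolvable_perm_three : Group.IsSolvable (Equiv.Perm (Fin 3)) := by
  haveI : Fact (Nat.Prime 3) := ⟨Nat.prime_three⟩
  haveI : IsCyclic (alternatingGroup (Fin 3)) :=
    isCyclic_of_prime_card (p := 3) (by rw [Nat.card_eq_fintype_card]; decide)
  exact Group.isSolvable_of_ker_le_range (alternatingGroup (Fin 3)).subtype Equiv.Perm.sign
    (by rw [Subgroup.range_subtype, alternatingGroup_eq_sign_ker])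

/-- The test singling out the normal four-subgroup. -/
def InKlein {L : Type v} [Group L] (x : L) : Prop := x * x = 1 ∧ ∀ g : L, x * (g * x * g⁻¹) = g * x * g⁻¹ * x

instance {L : Type v} [Group L] [Fintype L] [DecidableEq L] : DecidablePred (InKlein (L := L)) := fun x =>
  inferInstanceAs (Decidable (x * x = 1 ∧ ∀ g : L, x * (g * x * g⁻¹) = g * x * g⁻¹ * x))

/-- The properties of the normal four-subgroup that are used. -/
def KleinLike (L : Type v) [Group L] : Prop :=
  (∀ x y : L, InKlein x → InKlein y → InKlein (x * y) ∧ x * y = y * x) ∧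
    (∀ x : L, (∀ y, InKlein y → x * y = y * x) → InKlein x) ∧
    ∃ a b c : L, ∀ x, InKlein x → x = 1 ∨ x = a ∨ x = b ∨ x = c

set_option synthInstance.maxSize 2000 in
theorem kleinLike_klein : KleinLike (DihedralGroup 2) := by
  refine ⟨?_, ?_, ?_⟩ <;> decide +kernel

set_option synthInstance.maxSize 2000 in
theorem kleinLike_alt_four : KleinLike (alternatingGroup (Fin 4)) := by
  refine ⟨?_, ?_, ?_⟩ <;> decide +kernel

set_option synthInstance.maxSize 2000 in
theorem kleinLike_perm_four : KleinLike (Equiv.Perm (Fin 4)) := by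
  refine ⟨?_, ?_, ?_⟩ <;> decide +kernel

include hA in
/-- A perfect group acts trivially on the small quotients. -/
theorem perfect_trivial_small {L : Type v} [Group L] [Finite L] (hL : KleinLike L) (φ : A →* MulAut L) :
    ∀ a x, φ a x = x := by
  classical
  obtain ⟨hmul, hcent, p, q, r, hpqr⟩ := hL
  let V : Subgroup L :=
    { carrier := {x | InKlein x}
      one_mem' := ⟨one_mul 1, fun g => by simp⟩
      mul_mem' := fun hx hy => (hmul _ _ hx hy).1
      inv_mem' := fun {x} hx => by
        show InKlein x⁻¹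
        rw [inv_eq_of_mul_eq_one_right hx.1]; exact hx }
  have hstab : ∀ (a : A) (x : L), InKlein x → InKlein (φ a x) := by
    intro a x hx
    refine ⟨by rw [← map_mul, hx.1, map_one], fun g => ?_⟩
    obtain ⟨g', rfl⟩ := (φ a).surjective g
    simp only [← map_mul, ← map_inv]
    exact congrArg _ (hx.2 g')
  haveI : IsMulCommutative V := ⟨⟨fun x y => Subtype.ext (hmul x y x.2 y.2).2⟩⟩
  haveI : Group.IsSolvable V := Group.isSolvable_of_comm fun x y => mul_comm' x y
  -- the points moved
  let T := {x : L // InKlein x ∧ x ≠ 1}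
  have hT : Nat.card T ≤ 3 := by
    have h1 : {x : L | InKlein x ∧ x ≠ 1} ⊆ {p, q, r} := fun x hx => by
      rcases hpqr x hx.1 with e | e | e | e
      · exact absurd e hx.2
      all_goals simp [e]
    refine le_trans (le_of_eq (Nat.card_coe_set_eq _)) ((Set.ncard_le_ncard h1 (Set.toFinite _)).trans ?_)
    refine (Set.ncard_insert_le _ _).trans (Nat.succ_le_succ ((Set.ncard_insert_le _ _).trans ?_))
    rw [Set.ncard_singleton]
  obtain ⟨ι⟩ : Nonempty (T ↪ Fin 3) := by
    haveI := Fintype.ofFinite T
    exact Function.Embedding.nonempty_of_card_le (by rwa [Fintype.card_fin, ← Nat.card_eq_fintype_card])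
  let ψ : A →* Equiv.Perm T :=
    MonoidHom.mk' (fun a =>
      { toFun := fun x => ⟨φ a x.1, hstab a _ x.2.1, fun e => x.2.2 ((map_eq_one_iff _ (φ a).injective).1 e)⟩
        invFun := fun x => ⟨φ a⁻¹ x.1, hstab _ _ x.2.1, fun e => x.2.2 ((map_eq_one_iff _ (φ a⁻¹).injective).1 e)⟩
        left_inv := fun x => Subtype.ext (by
          show φ a⁻¹ (φ a x.1) = x.1
          rw [← MulAut.mul_apply, ← map_mul, inv_mul_cancel, map_one, MulAut.one_apply])
        right_inv := fun x => Subtype.ext (by
          show φ a (φ a⁻¹ x.1) = x.1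
          rw [← MulAut.mul_apply, ← map_mul, mul_inv_cancel, map_one, MulAut.one_apply]) })
      fun a b => Equiv.ext fun x => Subtype.ext (by
        show φ (a * b) x.1 = φ a (φ b x.1)
        rw [map_mul, MulAut.mul_apply])
  haveI := isSolvable_perm_three
  haveI : Group.IsSolvable (Equiv.Perm T) :=
    Group.isSolvable_of_isSolvable_injective (f := Equiv.Perm.viaEmbeddingHom ι) (Equiv.Perm.viaEmbeddingHom_injective ι)
  have hfix : ∀ a, ∀ x ∈ V, φ a x = x := by
    intro a x hx
    rcases eq_or_ne x 1 with rfl | hx1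
    · exact map_one _
    · exact congrArg Subtype.val (Equiv.ext_iff.1 (map_eq_one_of_perfect hA ψ a) ⟨x, hx, hx1⟩)
  refine perfect_trivial_of_displacement hA V φ hfix fun a x => hcent _ fun y hy => ?_
  -- the displacement centralises the four-subgroup
  have hy' : InKlein (x⁻¹ * y * x) := by
    refine hcent _ fun z hz => ?_
    have hz' : InKlein (x * z * x⁻¹) := ⟨by rw [show x * z * x⁻¹ * (x * z * x⁻¹) = x * (z * z) * x⁻¹ by group, hz.1, mul_one,
      mul_inv_cancel], fun g => by
        have := hz.2 (x⁻¹ * g * x)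
        have e := congrArg (fun w => x * w * x⁻¹) this
        simp only [mul_inv_rev, inv_inv] at e
        calc x * z * x⁻¹ * (g * (x * z * x⁻¹) * g⁻¹)
            = x * (z * (x⁻¹ * g * x * z * (x⁻¹ * (g⁻¹ * x)))) * x⁻¹ := by group
          _ = x * (x⁻¹ * g * x * z * (x⁻¹ * (g⁻¹ * x)) * z) * x⁻¹ := e
          _ = g * (x * z * x⁻¹) * g⁻¹ * (x * z * x⁻¹) := by group⟩
    have := (hmul y _ hy hz').2
    calc x⁻¹ * y * x * z = x⁻¹ * (y * (x * z * x⁻¹)) * x := by group
      _ = x⁻¹ * (x * z * x⁻¹ * y) * x := by rw [this]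
      _ = z * (x⁻¹ * y * x) := by group
  have h2 := hfix a _ hy'
  rw [map_mul, map_mul, map_inv, hfix a y hy] at h2
  calc x * (φ a x)⁻¹ * y = x * ((φ a x)⁻¹ * y * φ a x) * (φ a x)⁻¹ := by group
    _ = x * (x⁻¹ * y * x) * (φ a x)⁻¹ := by rw [h2]
    _ = y * (x * (φ a x)⁻¹) := by group

theorem sixTypes_map {H : Type u} [Group H] [Finite H] (σ : MulAut H) {N : Subgroup H} (hN : SixTypes N) :
    SixTypes (N.map σ.toMonoidHom) := by
  obtain ⟨hn, hZ, hq⟩ := hN
  haveI := hZ
  refine ⟨Normal.map hn σ.toMonoidHom σ.surjective,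
    IsZGroup.of_surjective (f := σ.toMonoidHom.subgroupMap N) (σ.toMonoidHom.subgroupMap_surjective N), ?_⟩
  have hk : ∀ {L : Type} [Group L] (f : H →* L), (f.comp σ.symm.toMonoidHom).ker = f.ker.map σ.toMonoidHom := by
    intro L _ f
    ext x
    rw [Subgroup.mem_map_equiv, MonoidHom.mem_ker, MonoidHom.mem_ker]
    rfl
  rcases hq with rfl | ⟨f, hf, rfl⟩ | ⟨f, hf, rfl⟩ | ⟨f, hf, rfl⟩ | ⟨f, hf, rfl⟩ | ⟨f, hf, rfl⟩
  · exact Or.inl (Subgroup.map_top_of_surjective _ σ.surjective)
  · exact Or.inr (Or.inl ⟨f.comp σ.symm.toMonoidHom, hf.comp σ.symm.surjective, hk f⟩)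
  · exact Or.inr (Or.inr (Or.inl ⟨f.comp σ.symm.toMonoidHom, hf.comp σ.symm.surjective, hk f⟩))
  · exact Or.inr (Or.inr (Or.inr (Or.inl ⟨f.comp σ.symm.toMonoidHom, hf.comp σ.symm.surjective, hk f⟩)))
  · exact Or.inr (Or.inr (Or.inr (Or.inr (Or.inl ⟨f.comp σ.symm.toMonoidHom, hf.comp σ.symm.surjective, hk f⟩))))
  · exact Or.inr (Or.inr (Or.inr (Or.inr (Or.inr ⟨f.comp σ.symm.toMonoidHom, hf.comp σ.symm.surjective, hk f⟩))))

include hA in
theorem perfect_trivial_zgroup {N : Type u} [Group N] [Finite N] [IsZGroup N] (φ : A →* MulAut N) :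
    ∀ a x, φ a x = x := by
  haveI : IsCyclic (commutator N) := IsZGroup.isCyclic_commutator N
  haveI : Group.IsSolvable (MulAut (commutator N)) := Group.isSolvable_of_comm fun x y =>
    (IsCyclic.mulAutMulEquiv (commutator N)).injective (by rw [map_mul, map_mul, mul_comm])
  haveI : Group.IsSolvable (MulAut (Abelianization N)) := Group.isSolvable_of_comm fun x y =>
    (IsCyclic.mulAutMulEquiv (Abelianization N)).injective (by rw [map_mul, map_mul, mul_comm])
  let ρ : A →* MulAut (commutator N) :=
    MonoidHom.mk' (fun a =>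
      { toFun := fun k => ⟨φ a k, (Subgroup.Characteristic.fixed (H := commutator N) inferInstance (φ a)).ge k.2⟩
        invFun := fun k => ⟨φ a⁻¹ k, (Subgroup.Characteristic.fixed (H := commutator N) inferInstance (φ a⁻¹)).ge k.2⟩
        left_inv := fun k => Subtype.ext (by
          show φ a⁻¹ (φ a k) = k
          rw [← MulAut.mul_apply, ← map_mul, inv_mul_cancel, map_one, MulAut.one_apply])
        right_inv := fun k => Subtype.ext (by
          show φ a (φ a⁻¹ k) = k
          rw [← MulAut.mul_apply, ← map_mul, mul_inv_cancel, map_one, MulAut.one_apply])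
        map_mul' := fun k k' => Subtype.ext (map_mul (φ a) k.1 k'.1) })
      fun a b => MulEquiv.ext fun k => Subtype.ext (by
        show φ (a * b) k = φ a (φ b k)
        rw [map_mul, MulAut.mul_apply])
  let π : A →* MulAut (Abelianization N) :=
    MonoidHom.mk' (fun a => (φ a).abelianizationCongr) fun a b => MulEquiv.ext fun k => by
      induction k using QuotientGroup.induction_on with
      | H x =>
        show Abelianization.of (φ (a * b) x) = Abelianization.of (φ a (φ b x))
        rw [map_mul, MulAut.mul_apply]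
  refine perfect_trivial_of_displacement hA (commutator N) φ (fun a k hk => ?_) fun a x => ?_
  · exact congrArg Subtype.val (DFunLike.congr_fun (map_eq_one_of_perfect hA ρ a) ⟨k, hk⟩)
  · have h1 := DFunLike.congr_fun (map_eq_one_of_perfect hA π a) (Abelianization.of x)
    rw [MulAut.one_apply] at h1
    change Abelianization.of (φ a x) = Abelianization.of x at h1
    rw [← Abelianization.ker_of, MonoidHom.mem_ker, map_mul, map_inv, h1, mul_inv_cancel]

include hA in
/-- A perfect group acts trivially on a solvable group with a fixed-point-free character. -/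
theorem perfect_trivial_fpf {H : Type u} [Group H] [Finite H] [Group.IsSolvable H] (h : FPFGroup H)
    (φ : A →* MulAut H) : ∀ a x, φ a x = x := by
  obtain ⟨N, hN, huniq⟩ := sixTypes_unique h
  have hstab : ∀ a, ∀ x, x ∈ N → φ a x ∈ N := fun a x hx => by
    have := huniq _ (sixTypes_map (φ a) hN)
    exact this ▸ mem_map_of_mem _ hx
  obtain ⟨hn, hZ, hq⟩ := hN
  haveI := hn
  haveI := hZ
  let ρ : A →* MulAut N :=
    MonoidHom.mk' (fun a =>
      { toFun := fun k => ⟨φ a k, hstab a k k.2⟩
        invFun := fun k => ⟨φ a⁻¹ k, hstab _ k k.2⟩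
        left_inv := fun k => Subtype.ext (by
          show φ a⁻¹ (φ a k) = k
          rw [← MulAut.mul_apply, ← map_mul, inv_mul_cancel, map_one, MulAut.one_apply])
        right_inv := fun k => Subtype.ext (by
          show φ a (φ a⁻¹ k) = k
          rw [← MulAut.mul_apply, ← map_mul, mul_inv_cancel, map_one, MulAut.one_apply])
        map_mul' := fun k k' => Subtype.ext (map_mul (φ a) k.1 k'.1) })
      fun a b => MulEquiv.ext fun k => Subtype.ext (by
        show φ (a * b) k = φ a (φ b k)
        rw [map_mul, MulAut.mul_apply])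
  refine perfect_trivial_of_displacement hA N φ
    (fun a k hk => congrArg Subtype.val (perfect_trivial_zgroup hA ρ a ⟨k, hk⟩)) fun a x => ?_
  have key : ∀ {L : Type} [Group L] [Finite L] (_ : KleinLike L) (f : H →* L), Function.Surjective f → f.ker = N →
      x * (φ a x)⁻¹ ∈ N := by
    intro L _ _ hL f hf hk
    let sinv := Function.surjInv hf
    have hs : ∀ l, f (sinv l) = l := Function.surjInv_eq hf
    have hwd : ∀ b y, f (φ b (sinv (f y))) = f (φ b y) := by
      intro b y
      have h1 : y⁻¹ * sinv (f y) ∈ N := by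
        rw [← hk, MonoidHom.mem_ker, map_mul, map_inv, hs, inv_mul_cancel]
      have h2 := hstab b _ h1
      rw [← hk, MonoidHom.mem_ker, map_mul, map_inv, map_mul, map_inv, inv_mul_eq_one] at h2
      exact h2.symm
    let ψf : A → L → L := fun b l => f (φ b (sinv l))
    have hψ : ∀ b y, ψf b (f y) = f (φ b y) := hwd
    have hψm : ∀ b c l, ψf b (ψf c l) = ψf (b * c) l := fun b c l => by
      show ψf b (f (φ c (sinv l))) = f (φ (b * c) (sinv l))
      rw [hψ, map_mul, MulAut.mul_apply]
    have hψ1 : ∀ l, ψf 1 l = l := fun l => by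
      show f (φ 1 (sinv l)) = l
      rw [map_one, MulAut.one_apply, hs]
    let ψ : A →* MulAut L :=
      MonoidHom.mk' (fun b =>
        { toFun := ψf b
          invFun := ψf b⁻¹
          left_inv := fun l => by rw [hψm, inv_mul_cancel, hψ1]
          right_inv := fun l => by rw [hψm, mul_inv_cancel, hψ1]
          map_mul' := fun l l' => by
            obtain ⟨y, rfl⟩ := hf l
            obtain ⟨y', rfl⟩ := hf l'
            rw [← map_mul, hψ, hψ, hψ, map_mul, map_mul] })
        fun b c => MulEquiv.ext fun l => (hψm b c l).symm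
    have h3 : ψf a (f x) = f x := perfect_trivial_small hA hL ψ a (f x)
    rw [hψ] at h3
    rw [← hk, MonoidHom.mem_ker, map_mul, map_inv, h3, mul_inv_cancel]
  rcases hq with rfl | ⟨f, hf, hk⟩ | ⟨f, hf, hk⟩ | ⟨f, hf, hk⟩ | ⟨f, hf, hk⟩ | ⟨f, hf, hk⟩
  · exact mem_top _
  · exact key kleinLike_klein f hf hk
  · exact key kleinLike_alt_four f hf hk
  · exact key kleinLike_perm_four f hf hk
  all_goals
    exfalso
    haveI := Group.isSolvable_of_surjective hf
  · exact Equiv.Perm.fin_5_not_solvable <| Group.isSolvable_of_ker_le_range (alternatingGroup (Fin 5)).subtype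
      Equiv.Perm.sign (by rw [Subgroup.range_subtype, alternatingGroup_eq_sign_ker])
  · exact Equiv.Perm.fin_5_not_solvable inferInstance

/-- The automorphism group of a solvable group with a fixed-point-free character is solvable. -/
theorem isSolvable_mulAut {H : Type u} [Group H] [Finite H] [Group.IsSolvable H] (h : FPFGroup H) :
    Group.IsSolvable (MulAut H) := by
  haveI : Finite (MulAut H) := Finite.of_injective (fun σ : MulAut H => (σ : H → H)) DFunLike.coe_injective
  by_contra hns
  obtain ⟨P, -, hP0, hP⟩ := exists_perfect_normal hns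
  refine hP0 ((eq_bot_iff_forall _).2 fun σ hσ => MulEquiv.ext fun x => ?_)
  exact perfect_trivial_fpf hP h P.subtype ⟨σ, hσ⟩ x

end Cfsg.Agent.Lib.ZassSL25
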