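import Mathlib

/-!
An element of large prime order preserving a nondegenerate pairing on a small elementary abelian group.
-/

set_option autoImplicit false

namespace Cfsg.Agent.Lib.ZassSL25.Transitive

open Polynomial

/-- The adjoint of a polynomial in an endomorphism preserving a pairing. -/
theorem adjoint_aeval {s : ℕ} [Fact s.Prime] {W C : Type*} [AddCommGroup W] [Module (ZMod s) W] [AddCommGroup C]
    (c : W →+ W →+ C) (e e' : Module.End (ZMod s) W) (hadj : ∀ x y, c (e x) y = c x (e' y))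
    (P : (ZMod s)[X]) : ∀ x y, c (aeval e P x) y = c x (aeval e' P y) := by
  induction P using Polynomial.induction_on' with
  | add f g hf hg => intro x y; simp [hf, hg]
  | monomial i a =>
    have hpow : ∀ (i : ℕ) (x y : W), c ((e ^ i) x) y = c x ((e' ^ i) y) := by
      intro i
      induction i with
      | zero => intro x y; simp
      | succ i ih =>
        intro x y
        rw [pow_succ e i, Module.End.mul_apply, ih, hadj, pow_succ' e' i, Module.End.mul_apply]
    intro x y
    haveI : NeZero s := ⟨(Fact.out : s.Prime).ne_zero⟩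
    have ha : ∀ (u : W), a • u = a.val • u := fun u => by
      rw [← Nat.cast_smul_eq_nsmul (ZMod s), ZMod.natCast_zmod_val]
    simp only [aeval_monomial, Module.End.mul_apply, Module.algebraMap_end_apply]
    rw [ha, ha, map_nsmul, AddMonoidHom.nsmul_apply, map_nsmul, hpow]

/-- A large prime acting on a small space with a nondegenerate invariant pairing is a Fermat prime. -/
theorem large_prime_pairing {s r n : ℕ} [Fact s.Prime] (hr : r.Prime) (hrs : r ≠ s) (hn : n < r) (hn2 : 2 ≤ n)
    {W C : Type*} [AddCommGroup W] [Module (ZMod s) W] [Finite W] [AddCommGroup C] (c : W →+ W →+ C)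
    (hnd : ∀ x, (∀ y, c x y = 0) → x = 0) (hk : Nat.card W ≤ n ^ 2)
    (e : Module.End (ZMod s) W) (her : e ^ r = 1) (he : e ≠ 1) (hc : ∀ x y, c (e x) (e y) = c x y) :
    s = 2 ∧ r = n + 1 ∧ Nat.card W = n ^ 2 ∧ (∃ i, n = 2 ^ i) ∧ ∀ x, e x = x → x = 0 := by
  classical
  haveI := Fact.mk hr
  have hs : s.Prime := Fact.out
  have hr2 : 2 < r := by omega
  set k := Module.finrank (ZMod s) W with hkdef
  have hcard : Nat.card W = s ^ k := by rw [Module.natCard_eq_pow_finrank (K := ZMod s), Nat.card_zmod]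
  rw [hcard] at hk
  set P := minpoly (ZMod s) e with hP
  set e' : Module.End (ZMod s) W := e ^ (r - 1)
  have hee' : e * e' = 1 := by rw [← pow_succ', show r - 1 + 1 = r by omega, her]
  have hadj : ∀ x y, c (e' x) y = c x (e y) := fun x y => by
    conv_rhs => rw [show x = e (e' x) from (congrArg (fun f : Module.End (ZMod s) W => f x) hee').symm]
    exact (hc _ _).symm
  have hP' : aeval e' P = 0 := LinearMap.ext fun y => hnd _ fun x => by
    rw [adjoint_aeval c e' e hadj P y x, minpoly.aeval, LinearMap.zero_apply, map_zero]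
  haveI : Nontrivial (Module.End (ZMod s) W) := ⟨⟨e, 1, he⟩⟩
  have hint : IsIntegral (ZMod s) e := Algebra.IsIntegral.isIntegral e
  have hmon : P.Monic := minpoly.monic hint
  have hdeg : P.natDegree ≤ k := by
    have h1 := natDegree_le_of_dvd (LinearMap.minpoly_dvd_charpoly e) (LinearMap.charpoly_monic e).ne_zero
    rwa [LinearMap.charpoly_natDegree] at h1
  have hPd : P ∣ X ^ r - 1 := minpoly.dvd _ _ (by simp [her])
  have hrne : ((r : ℕ) : ZMod s) ≠ 0 := by
    rw [Ne, ZMod.natCast_eq_zero_iff, Nat.prime_dvd_prime_iff_eq hs hr]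
    exact Ne.symm hrs
  have hsep : P.Separable := by
    refine Separable.of_dvd ?_ hPd
    rw [← Polynomial.C_1]; exact separable_X_pow_sub_C (1 : ZMod s) hrne one_ne_zero
  let L := AlgebraicClosure (ZMod s)
  have hroots : (P.rootSet L).ncard = P.natDegree := by
    rw [Set.ncard_eq_toFinset_card', Set.toFinset_card]
    exact card_rootSet_eq_natDegree hsep (IsAlgClosed.splits _)
  have hmem : ∀ x : L, x ∈ P.rootSet L ↔ aeval x P = 0 := fun x => mem_rootSet_of_ne hmon.ne_zero
  -- a root different from one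
  obtain ⟨θ, hθ, hθ1⟩ : ∃ θ : L, aeval θ P = 0 ∧ θ ≠ 1 := by
    by_contra hno
    push Not at hno
    have hsub : P.rootSet L ⊆ {1} := fun x hx => hno x ((hmem x).1 hx)
    have hd1 : P.natDegree ≤ 1 := by
      rw [← hroots]; exact (Set.ncard_le_ncard hsub).trans (Set.ncard_singleton _).le
    have hd0 : P.natDegree ≠ 0 := (minpoly.natDegree_pos hint).ne'
    obtain ⟨θ, hθ⟩ := (Set.ncard_pos (Set.toFinite _)).1 (by rw [hroots]; omega : 0 < (P.rootSet L).ncard)
    have hθ0 := (hmem θ).1 hθ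
    rw [hno θ hθ0] at hθ0
    have e1 : P = X + Polynomial.C (P.coeff 0) := hmon.eq_X_add_C (by omega)
    rw [e1, map_add, aeval_X, aeval_C, ← map_one (algebraMap (ZMod s) L), ← map_add, map_eq_zero] at hθ0
    have e2 := minpoly.aeval (ZMod s) e
    rw [← hP, e1, show P.coeff 0 = -1 from eq_neg_of_add_eq_zero_right hθ0, map_add, aeval_X, aeval_C, map_neg,
      map_one, ← sub_eq_add_neg, sub_eq_zero] at e2
    exact he e2
  have hθr : θ ^ r = 1 := by
    obtain ⟨Q, hQ⟩ := hPd
    have := congrArg (aeval θ) hQ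
    rw [map_mul, hθ, zero_mul, map_sub, map_pow, aeval_X, map_one, sub_eq_zero] at this
    exact this
  have hθo : orderOf θ = r := orderOf_eq_prime hθr hθ1
  have hexp : ∀ a b : ℕ, θ ^ a = θ ^ b ↔ (a : ZMod r) = b := fun a b => by
    rw [(isOfFinOrder_iff_pow_eq_one.2 ⟨r, hr.pos, hθr⟩).pow_eq_pow_iff_modEq, hθo, ZMod.natCast_eq_natCast_iff]
  have hfrob : ∀ (x : L), aeval x P = 0 → ∀ i : ℕ, aeval (x ^ s ^ i) P = 0 := by
    intro x hx i
    induction i with
    | zero => simpa using hx
    | succ i ih =>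
      rw [pow_succ, pow_mul, ← expand_aeval, ZMod.expand_card, map_pow, ih, zero_pow hs.ne_zero]
  have hinv : aeval (θ ^ (r - 1)) P = 0 := by
    have h1 : aeval e (P.comp (X ^ (r - 1))) = 0 := by rw [aeval_comp, map_pow, aeval_X]; exact hP'
    obtain ⟨Q, hQ⟩ := minpoly.dvd _ _ h1
    have := congrArg (aeval θ) hQ
    rwa [map_mul, ← hP, hθ, zero_mul, aeval_comp, map_pow, aeval_X] at this
  -- the orbit of the root
  set j := orderOf (s : ZMod r) with hj
  have hs0 : (s : ZMod r) ≠ 0 := by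
    rw [Ne, ZMod.natCast_eq_zero_iff, Nat.prime_dvd_prime_iff_eq hr hs]
    exact hrs
  have hj0 : 0 < j := by
    rw [hj, orderOf_pos_iff, isOfFinOrder_iff_pow_eq_one]
    exact ⟨r - 1, by omega, ZMod.pow_card_sub_one_eq_one hs0⟩
  let O₁ : Finset L := (Finset.range j).image fun i => θ ^ s ^ i
  let O₂ : Finset L := (Finset.range j).image fun i => (θ ^ (r - 1)) ^ s ^ i
  have hO₁ : O₁.card = j := by
    rw [Finset.card_image_of_injOn, Finset.card_range]
    intro a ha b hb h
    rw [Finset.coe_range, Set.mem_Iio] at ha hb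
    simp only [hexp, Nat.cast_pow] at h
    exact pow_injOn_Iio_orderOf ha hb h
  have hr1 : ((r - 1 : ℕ) : ZMod r) = -1 := by
    rw [Nat.cast_sub hr.pos, ZMod.natCast_self, Nat.cast_one, zero_sub]
  have hO₂ : O₂.card = j := by
    rw [Finset.card_image_of_injOn, Finset.card_range]
    intro a ha b hb h
    rw [Finset.coe_range, Set.mem_Iio] at ha hb
    simp only [← pow_mul, hexp, Nat.cast_mul, Nat.cast_pow, hr1, neg_one_mul, neg_inj] at h
    exact pow_injOn_Iio_orderOf ha hb h
  have hle : ∀ S : Finset L, (∀ x ∈ S, aeval x P = 0) → S.card ≤ k := fun S hS => by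
    refine le_trans ?_ hdeg
    rw [← hroots, ← Set.ncard_coe_finset]
    exact Set.ncard_le_ncard (fun x hx => (hmem x).2 (hS x hx)) (Set.toFinite _)
  have hrd : r ∣ s ^ j - 1 := by
    rw [← ZMod.natCast_eq_zero_iff, Nat.cast_sub (Nat.one_le_pow _ _ hs.pos), Nat.cast_pow, hj, pow_orderOf_eq_one,
      Nat.cast_one, sub_self]
  -- minus one is a power of `s`
  obtain ⟨i, hij, hi⟩ : ∃ i, i < j ∧ (s : ZMod r) ^ i = -1 := by
    by_contra hno
    push Not at hno
    have hdisj : Disjoint O₁ O₂ := by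
      rw [Finset.disjoint_left]
      intro x hx hy
      obtain ⟨a, -, rfl⟩ := Finset.mem_image.1 hx
      obtain ⟨b, hb, he'⟩ := Finset.mem_image.1 hy
      rw [Finset.mem_range] at hb
      rw [← pow_mul, hexp, Nat.cast_mul, hr1, Nat.cast_pow, Nat.cast_pow, neg_one_mul] at he'
      refine hno ((a + (j - b)) % j) (Nat.mod_lt _ hj0) ?_
      rw [hj, pow_mod_orderOf, pow_add, ← hj, ← he', neg_mul, ← pow_add, show b + (j - b) = j by omega, hj,
        pow_orderOf_eq_one]
    have h2j : j + j ≤ k := by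
      have := hle (O₁ ∪ O₂) fun x hx => by
        rcases Finset.mem_union.1 hx with hx | hx <;> obtain ⟨a, -, rfl⟩ := Finset.mem_image.1 hx
        · exact hfrob θ hθ a
        · exact hfrob _ hinv a
      rwa [Finset.card_union_of_disjoint hdisj, hO₁, hO₂] at this
    have h1 : (s ^ j) ^ 2 ≤ n ^ 2 := by
      rw [← pow_mul]; exact (Nat.pow_le_pow_right hs.pos (by omega)).trans hk
    have h2 : s ^ j ≤ n := (Nat.pow_le_pow_iff_left two_ne_zero).1 h1
    have h3 : 0 < s ^ j - 1 := Nat.sub_pos_of_lt (Nat.one_lt_pow hj0.ne' hs.one_lt)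
    have := Nat.le_of_dvd h3 hrd
    omega
  have hjk : j ≤ k := hO₁ ▸ hle O₁ fun x hx => by
    obtain ⟨a, -, rfl⟩ := Finset.mem_image.1 hx
    exact hfrob θ hθ a
  have hne1 : (-1 : ZMod r) ≠ 1 := by
    haveI : Fact (2 < r) := ⟨hr2⟩
    exact ZMod.neg_one_ne_one
  have hi0 : i ≠ 0 := by rintro rfl; rw [pow_zero] at hi; exact hne1 hi.symm
  have hdbl : j ∣ 2 * i := orderOf_dvd_of_pow_eq_one (by rw [mul_comm, pow_mul, hi, neg_one_sq])
  have h2i : j = 2 * i := by
    obtain ⟨t, ht⟩ := hdbl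
    rcases t with _ | _ | t
    · omega
    · omega
    · have : j * 2 ≤ j * (t + 1 + 1) := Nat.mul_le_mul_left _ (by omega)
      omega
  have hrdvd : r ∣ s ^ i + 1 := by
    rw [← ZMod.natCast_eq_zero_iff, Nat.cast_add, Nat.cast_pow, hi, Nat.cast_one, neg_add_cancel]
  have hsin : s ^ i ≤ n := by
    refine (Nat.pow_le_pow_iff_left two_ne_zero).1 ?_
    rw [← pow_mul]
    exact (Nat.pow_le_pow_right hs.pos (by omega)).trans hk
  have hre : r ≤ s ^ i + 1 := Nat.le_of_dvd (by omega) hrdvd
  have hni : n = s ^ i := by omega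
  have hrn : r = n + 1 := by omega
  have hk2 : k = j := by
    refine le_antisymm ?_ hjk
    refine (Nat.pow_le_pow_iff_right hs.one_lt).1 ?_
    rwa [h2i, mul_comm, pow_mul, ← hni]
  have hs2 : s = 2 := by
    rcases hr.eq_two_or_odd with e | e
    · omega
    · rcases hs.eq_two_or_odd with e' | e'
      · exact e'
      · have : Odd (s ^ i) := (Nat.odd_iff.2 e').pow
        rw [Nat.odd_iff] at this
        omega
  refine ⟨hs2, hrn, ?_, ⟨i, hs2 ▸ hni⟩, fun x hx => ?_⟩
  · rw [hcard, hk2, h2i, mul_comm, pow_mul, ← hni]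
  by_contra hx0
  have hev : (aeval e P) x = (P.eval 1) • x := Module.End.aeval_apply_of_hasEigenvector
    ⟨Module.End.mem_eigenspace_iff.2 (by rw [one_smul]; exact hx), hx0⟩
  rw [minpoly.aeval, LinearMap.zero_apply, eq_comm, smul_eq_zero, or_iff_left hx0] at hev
  have h1 : aeval (1 : L) P = 0 := by
    rw [← map_one (algebraMap (ZMod s) L), aeval_algebraMap_apply_eq_algebraMap_eval, hev, map_zero]
  have := hle (insert 1 O₁) fun y hy => by
    rcases Finset.mem_insert.1 hy with rfl | hy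
    · exact h1
    · obtain ⟨a, -, rfl⟩ := Finset.mem_image.1 hy
      exact hfrob θ hθ a
  rw [Finset.card_insert_of_notMem, hO₁] at this
  · omega
  · intro hy
    obtain ⟨a, -, ha⟩ := Finset.mem_image.1 hy
    rw [← pow_zero θ, hexp, Nat.cast_pow, Nat.cast_zero, pow_eq_zero_iff'] at ha
    exact hs0 ha.1

/-- `large_prime_pairing` for groups of exponent `s`. -/
theorem large_prime_pairing_addHom {s r n : ℕ} [Fact s.Prime] (hr : r.Prime) (hrs : r ≠ s) (hn : n < r) (hn2 : 2 ≤ n)
    {W C : Type*} [AddCommGroup W] [Finite W] [AddCommGroup C] (hexp : ∀ x : W, s • x = 0) (c : W →+ W →+ C)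
    (hnd : ∀ x, (∀ y, c x y = 0) → x = 0) (hk : Nat.card W ≤ n ^ 2) (e : W →+ W) (her : ∀ x, e^[r] x = x)
    (he : ∃ x, e x ≠ x) (hc : ∀ x y, c (e x) (e y) = c x y) :
    s = 2 ∧ r = n + 1 ∧ Nat.card W = n ^ 2 ∧ (∃ i, n = 2 ^ i) ∧ ∀ x, e x = x → x = 0 := by
  haveI : Module (ZMod s) W := AddCommGroup.zmodModule hexp
  let eA : Module.End (ZMod s) W := AddMonoidHom.toZModLinearMap s e
  obtain ⟨x₀, hx₀⟩ := he
  exact large_prime_pairing hr hrs hn hn2 c hnd hk eA
    (LinearMap.ext fun a => by rw [Module.End.coe_pow]; exact her a)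
    (fun h => hx₀ (congrArg (fun f : Module.End (ZMod s) W => f x₀) h)) hc

/-- The multiplicative form of `large_prime_pairing`. -/
theorem large_prime_bracket {s r n : ℕ} [Fact s.Prime] (hr : r.Prime) (hrs : r ≠ s) (hn : n < r) (hn2 : 2 ≤ n)
    {Q Z : Type*} [CommGroup Q] [Finite Q] [CommGroup Z] (hexp : ∀ x : Q, x ^ s = 1) (c : Q →* Q →* Z)
    (hnd : ∀ x, (∀ y, c x y = 1) → x = 1) (hk : Nat.card Q ≤ n ^ 2) (e : Q →* Q) (her : ∀ x, e^[r] x = x)
    (he : ∃ x, e x ≠ x) (hc : ∀ x y, c (e x) (e y) = c x y) :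
    s = 2 ∧ r = n + 1 ∧ Nat.card Q = n ^ 2 ∧ (∃ i, n = 2 ^ i) ∧ ∀ x, e x = x → x = 1 := by
  let cA : Additive Q →+ Additive Q →+ Additive Z :=
    { toFun := fun a => MonoidHom.toAdditive (c a.toMul)
      map_zero' := AddMonoidHom.ext fun b => by
        show Additive.ofMul (c 1 b.toMul) = 0
        rw [map_one]; rfl
      map_add' := fun a a' => AddMonoidHom.ext fun b => by
        show Additive.ofMul (c (a.toMul * a'.toMul) b.toMul) = _
        rw [map_mul]; rfl }
  obtain ⟨x₀, hx₀⟩ := he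
  have hcard : Nat.card (Additive Q) = Nat.card Q := Nat.card_congr Additive.toMul
  have hit : ∀ (i : ℕ) (a : Additive Q), (MonoidHom.toAdditive e)^[i] a = Additive.ofMul (e^[i] a.toMul) := by
    intro i
    induction i with
    | zero => intro a; rfl
    | succ i ih => intro a; rw [Function.iterate_succ_apply', ih, Function.iterate_succ_apply']; rfl
  obtain ⟨h1, h2, h3, h4, h5⟩ := large_prime_pairing_addHom hr hrs hn hn2
    (fun x : Additive Q => congrArg Additive.ofMul (hexp x.toMul)) cA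
    (fun a ha => congrArg Additive.ofMul (hnd a.toMul fun y => Additive.ofMul.injective (ha (Additive.ofMul y))))
    (hcard ▸ hk) (MonoidHom.toAdditive e) (fun a => (hit r a).trans (congrArg Additive.ofMul (her a.toMul)))
    ⟨Additive.ofMul x₀, fun h => hx₀ (Additive.ofMul.injective h)⟩
    (fun a b => congrArg Additive.ofMul (hc a.toMul b.toMul))
  exact ⟨h1, h2, hcard ▸ h3, h4, fun x hx => Additive.ofMul.injective (h5 (Additive.ofMul x) (congrArg Additive.ofMul hx))⟩

end Cfsg.Agent.Lib.ZassSL25.Transitive
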