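import Mathlib

/-!
A linear group with an irreducible abelian normal subgroup is semilinear of dimension one, and the
consequences for normal subgroups of index two.
-/

set_option autoImplicit false

namespace Cfsg.Agent.Lib.ZassSL25

open Subgroup

section Criterion

variable {q : ℕ} [Fact q.Prime] {V : Type*} [AddCommGroup V] [Module (ZMod q) V] [Finite V]
  {G : Type*} [Group G] [Finite G]

/-- A submodule invariant under a semiregular subgroup has order congruent to one. -/
theorem card_dvd_pow_finrank_sub_one (ρ : G →* (V ≃ₗ[ZMod q] V))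
    (A : Subgroup G) (hreg : ∀ v : V, v ≠ 0 → ∀ a ∈ A, ρ a v = v → a = 1) (W : Submodule (ZMod q) V)
    (hW : ∀ a ∈ A, ∀ w ∈ W, ρ a w ∈ W) : Nat.card A ∣ q ^ Module.finrank (ZMod q) W - 1 := by
  classical
  letI : MulAction A {w : W // w ≠ 0} :=
    { smul := fun a w => ⟨⟨ρ a w.1.1, hW a a.2 _ w.1.2⟩, fun e => w.2 (Subtype.ext
        ((ρ a).injective ((congrArg Subtype.val e).trans (map_zero (ρ a)).symm)))⟩
      one_smul := fun w => Subtype.ext <| Subtype.ext <| by
        show ρ ((1 : A) : G) w.1.1 = w.1.1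
        rw [OneMemClass.coe_one, map_one]; rfl
      mul_smul := fun a b w => Subtype.ext <| Subtype.ext <| by
        show ρ ((a * b : A) : G) w.1.1 = ρ a (ρ b w.1.1)
        rw [Subgroup.coe_mul, map_mul]; rfl }
  have hstab : ∀ w : {w : W // w ≠ 0}, MulAction.stabilizer A w = ⊥ := fun w => by
    refine (Subgroup.eq_bot_iff_forall _).2 fun a ha => Subtype.ext ?_
    exact hreg w.1.1 (fun e => w.2 (Subtype.ext e)) a a.2 (congrArg (fun x : {w : W // w ≠ 0} => x.1.1) ha)
  have h := Nat.card_congr (MulAction.selfEquivOrbitsQuotientProd hstab)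
  rw [Nat.card_prod] at h
  have hc : Nat.card {w : W // w ≠ 0} = q ^ Module.finrank (ZMod q) W - 1 := by
    haveI := Fintype.ofFinite W
    rw [Nat.card_eq_fintype_card, Fintype.card_subtype_compl, Fintype.card_subtype_eq,
      ← Nat.card_eq_fintype_card, Module.natCard_eq_pow_finrank (K := ZMod q), Nat.card_zmod]
  exact hc ▸ h ▸ dvd_mul_left _ _

/-- A fixed-point-free linear group with a large enough abelian normal subgroup is semilinear. -/
theorem semilinear_of_abelian_normal [Nontrivial V] (ρ : G →* (V ≃ₗ[ZMod q] V))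
    (A : Subgroup G) [A.Normal] [IsMulCommutative A] (hreg : ∀ v : V, v ≠ 0 → ∀ a ∈ A, ρ a v = v → a = 1)
    (hA : ∀ k, 0 < k → k < Module.finrank (ZMod q) V → ¬ Nat.card A ∣ q ^ k - 1) :
    ∃ (F : Type) (_ : Field F) (_ : Fintype F) (e : V ≃+ F),
      ∀ g : G, ∃ (a : F) (σ : F ≃+* F), ∀ v : V, e (ρ g v) = a * σ (e v) := by
  classical
  have hirr : ∀ W : Submodule (ZMod q) V, (∀ a ∈ A, ∀ w ∈ W, ρ a w ∈ W) → W = ⊥ ∨ W = ⊤ := fun W hW => by
    by_contra hne
    push Not at hne
    exact hA _ (Nat.pos_of_ne_zero fun e => hne.1 (Submodule.finrank_eq_zero.1 e))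
      (Submodule.finrank_lt hne.2) (card_dvd_pow_finrank_sub_one ρ A hreg W hW)
  let S : Set (Module.End (ZMod q) V) := Set.range fun a : A => (ρ a).toLinearMap
  let R := Algebra.adjoin (ZMod q) S
  have hS : ∀ a ∈ A, (ρ a).toLinearMap ∈ R := fun a ha => Algebra.subset_adjoin ⟨⟨a, ha⟩, rfl⟩
  haveI hcomm : IsMulCommutative R := Algebra.isMulCommutative_adjoin (ZMod q) (by
    rintro _ ⟨a, rfl⟩ _ ⟨b, rfl⟩
    refine LinearMap.ext fun v => ?_
    show ρ a (ρ b v) = ρ b (ρ a v)
    have h : (a : G) * b = b * a := congrArg Subtype.val (mul_comm' a b)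
    calc ρ a (ρ b v) = (ρ a * ρ b) v := rfl
      _ = (ρ b * ρ a) v := by rw [← map_mul, h, map_mul]
      _ = ρ b (ρ a v) := rfl)
  have hRcomm : ∀ x ∈ R, ∀ y ∈ R, x * y = y * x := fun x hx y hy =>
    congrArg Subtype.val (mul_comm' (⟨x, hx⟩ : R) ⟨y, hy⟩)
  obtain ⟨v0, hv0⟩ := exists_ne (0 : V)
  let ev : R →ₗ[ZMod q] V :=
    { toFun := fun x => x.1 v0
      map_add' := fun _ _ => rfl
      map_smul' := fun _ _ => rfl }
  have hker : ∀ x ∈ R, ∀ v : V, v ≠ 0 → x v = 0 → x = 0 := fun x hx v hv hxv => by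
    have h := hirr (LinearMap.ker x) fun a ha w hw => by
      rw [LinearMap.mem_ker] at hw ⊢
      have := congrArg (fun f : Module.End (ZMod q) V => f w) (hRcomm x hx _ (hS a ha))
      simpa [hw] using this
    rcases h with h | h
    · have : v ∈ LinearMap.ker x := hxv
      rw [h, Submodule.mem_bot] at this
      exact absurd this hv
    · exact LinearMap.ker_eq_top.1 h
  have hevi : Function.Injective ev := (injective_iff_map_eq_zero ev).2 fun x hx =>
    Subtype.ext (hker x.1 x.2 v0 hv0 hx)
  have hevs : Function.Surjective ev := by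
    rw [← LinearMap.range_eq_top]
    refine (hirr _ fun a ha w hw => ?_).resolve_left fun h => ?_
    · obtain ⟨x, rfl⟩ := hw
      exact ⟨⟨_, mul_mem (hS a ha) x.2⟩, rfl⟩
    · exact hv0 ((Submodule.mem_bot (ZMod q)).1 (h ▸ ⟨1, rfl⟩))
  let evE : R ≃+ V := AddEquiv.ofBijective ev.toAddMonoidHom ⟨hevi, hevs⟩
  haveI : Finite R := Finite.of_injective _ hevi
  haveI : Nontrivial R := evE.toEquiv.nontrivial
  have hfield : IsField R := by
    refine ⟨exists_pair_ne R, mul_comm', fun {x} hx => ?_⟩
    have hinj : Function.Injective fun y : R => x * y := fun y z h => by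
      by_contra hne
      have h0 : x.1 ((y - z : R).1 v0) = 0 := by
        have := congrArg (fun w : R => w.1 v0) h
        simpa [sub_eq_zero] using this
      refine hx (Subtype.ext (hker x.1 x.2 _ ?_ h0))
      exact fun e => hne (sub_eq_zero.1 (hevi (e.trans (map_zero ev).symm)))
    obtain ⟨y, hy⟩ := (Finite.injective_iff_surjective.1 hinj) 1
    exact ⟨y, hy⟩
  letI : Field R := hfield.toField
  letI := Fintype.ofFinite R
  set n := Module.finrank (ZMod q) V
  have hn : n ≠ 0 := (Module.finrank_pos (R := ZMod q) (M := V)).ne'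
  letI := Fintype.ofFinite (GaloisField q n)
  have hcard : Fintype.card R = Fintype.card (GaloisField q n) := by
    rw [← Nat.card_eq_fintype_card, ← Nat.card_eq_fintype_card, GaloisField.card q n hn,
      Nat.card_congr evE.toEquiv, Module.natCard_eq_pow_finrank (K := ZMod q), Nat.card_zmod]
  let φ : R ≃+* GaloisField q n := FiniteField.ringEquivOfCardEq hcard
  refine ⟨GaloisField q n, inferInstance, inferInstance, evE.symm.trans φ.toAddEquiv, fun g => ?_⟩
  have hinv : ∀ (h : G) (v : V), ρ h⁻¹ (ρ h v) = v := fun h v => by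
    show (ρ h⁻¹ * ρ h) v = v
    rw [← map_mul, inv_mul_cancel, map_one]; rfl
  have hconj : ∀ x ∈ R, (ρ g).toLinearMap * x * (ρ g⁻¹).toLinearMap ∈ R := by
    intro x hx
    induction hx using Algebra.adjoin_induction with
    | mem x hx =>
      obtain ⟨a, rfl⟩ := hx
      have e : (ρ g).toLinearMap * (ρ a).toLinearMap * (ρ g⁻¹).toLinearMap = (ρ (g * a * g⁻¹)).toLinearMap := by
        rw [map_mul, map_mul]; rfl
      rw [e]
      exact hS _ (‹A.Normal›.conj_mem a a.2 g)
    | algebraMap r =>
      have e : (ρ g).toLinearMap * algebraMap (ZMod q) _ r * (ρ g⁻¹).toLinearMap =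
          algebraMap (ZMod q) (Module.End (ZMod q) V) r := by
        rw [← Algebra.commutes, mul_assoc]
        refine LinearMap.ext fun v => ?_
        have := hinv g⁻¹ v
        rw [inv_inv] at this
        simp [this]
      rw [e]
      exact R.algebraMap_mem r
    | add x y _ _ hx hy => rw [mul_add, add_mul]; exact add_mem hx hy
    | mul x y _ _ hx hy =>
      have e : (ρ g).toLinearMap * (x * y) * (ρ g⁻¹).toLinearMap =
          ((ρ g).toLinearMap * x * (ρ g⁻¹).toLinearMap) * ((ρ g).toLinearMap * y * (ρ g⁻¹).toLinearMap) :=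
        LinearMap.ext fun v => by simp [hinv]
      rw [e]
      exact mul_mem hx hy
  let σ : R →+* R :=
    { toFun := fun x => ⟨_, hconj x.1 x.2⟩
      map_one' := Subtype.ext <| LinearMap.ext fun v => by
        have := hinv g⁻¹ v
        rw [inv_inv] at this
        simpa using this
      map_mul' := fun x y => Subtype.ext <| LinearMap.ext fun v => by simp [hinv]
      map_zero' := Subtype.ext <| by simp
      map_add' := fun x y => Subtype.ext <| by simp [mul_add, add_mul] }
  let σE : R ≃+* R := RingEquiv.ofBijective σ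
    ⟨σ.injective, Finite.injective_iff_surjective.1 σ.injective⟩
  obtain ⟨c, hc⟩ := hevs (ρ g v0)
  refine ⟨φ c, φ.symm.trans (σE.trans φ), fun v => ?_⟩
  obtain ⟨x, rfl⟩ := evE.surjective v
  show φ (evE.symm (ρ g (evE x))) = φ c * φ (σ (φ.symm (φ (evE.symm (evE x)))))
  rw [AddEquiv.symm_apply_apply, RingEquiv.symm_apply_apply, ← map_mul]
  congr 1
  rw [AddEquiv.symm_apply_eq, mul_comm]
  show ρ g (x.1 v0) = (σ x).1 (c.1 v0)
  rw [show c.1 v0 = ρ g v0 from hc]
  show ρ g (x.1 v0) = ρ g (x.1 (ρ g⁻¹ (ρ g v0)))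
  rw [hinv]

end Criterion

/-- A cyclic quotient of even order yields a normal subgroup of index two. -/
theorem index_two_of_cyclic_hom {G C : Type*} [Group G] [Group C] (f : G →* C) [IsCyclic f.range]
    [Finite f.range] (h : 2 ∣ Nat.card f.range) : ∃ N : Subgroup G, N.Normal ∧ N.index = 2 := by
  obtain ⟨c, hc⟩ := IsCyclic.exists_generator (α := f.range)
  have hidx : (zpowers (c ^ 2)).index = 2 := by
    have h1 := Subgroup.card_mul_index (zpowers (c ^ 2))
    have hc' : orderOf c = Nat.card f.range := orderOf_eq_card_of_forall_mem_zpowers hc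
    rw [Nat.card_zpowers, orderOf_pow_of_dvd two_ne_zero (hc'.symm ▸ h), hc'] at h1
    obtain ⟨m, hm⟩ := h
    rw [hm, Nat.mul_div_cancel_left _ two_pos] at h1
    have hpos : 0 < Nat.card f.range := Nat.card_pos
    exact Nat.eq_of_mul_eq_mul_left (by omega : 0 < m) (h1.trans (mul_comm 2 m))
  haveI := Subgroup.normal_of_index_eq_two hidx
  refine ⟨(zpowers (c ^ 2)).comap f.rangeRestrict, inferInstance, ?_⟩
  rw [index_comap_of_surjective _ f.rangeRestrict_surjective, hidx]

/-- A group of even order with cyclic Sylow 2-subgroups has a normal subgroup of index two. -/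
theorem index_two_of_cyclic_sylow {G : Type*} [Group G] [Finite G] (h2 : 2 ∣ Nat.card G) (P : Sylow 2 G)
    [IsCyclic P] : ∃ N : Subgroup G, N.Normal ∧ N.index = 2 := by
  haveI : Fact (Nat.Prime 2) := ⟨Nat.prime_two⟩
  have hmin : (Nat.card G).minFac = 2 := (Nat.minFac_eq_two_iff _).2 h2
  have hle := IsCyclic.normalizer_le_centralizer hmin (P := P) inferInstance
  have hcompl := MonoidHom.ker_transferSylow_isComplement' P hle
  let f := MonoidHom.transferSylow P hle
  haveI : IsCyclic f.range := isCyclic_of_injective f.range.subtype (subtype_injective _)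
  refine index_two_of_cyclic_hom f ?_
  rw [← Subgroup.index_ker, hcompl.symm.index_eq_card]
  exact P.dvd_card_of_dvd_card h2

/-- A semilinear group of dimension one of even order has a normal subgroup of index two. -/
theorem index_two_of_semilinear {q : ℕ} [Fact q.Prime] {V : Type*} [AddCommGroup V] [Module (ZMod q) V]
    {G : Type*} [Group G] [Finite G] (ρ : G →* (V ≃ₗ[ZMod q] V)) (hρ : Function.Injective ρ)
    (h : ∃ (F : Type) (_ : Field F) (_ : Fintype F) (e : V ≃+ F),
      ∀ g : G, ∃ (a : F) (σ : F ≃+* F), ∀ v : V, e (ρ g v) = a * σ (e v))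
    (h2 : 2 ∣ Nat.card G) : ∃ N : Subgroup G, N.Normal ∧ N.index = 2 := by
  classical
  haveI : Fact (Nat.Prime 2) := ⟨Nat.prime_two⟩
  obtain ⟨F, _, _, e, he⟩ := h
  choose a σ hσ using he
  haveI : CharP F q := by
    refine (CharP.charP_iff_prime_eq_zero Fact.out).2 ?_
    have h0 : q • e.symm 1 = 0 := by
      rw [← Nat.cast_smul_eq_nsmul (ZMod q), ZMod.natCast_self, zero_smul]
    have := congrArg e h0
    rw [map_nsmul, AddEquiv.apply_symm_apply, map_zero, nsmul_one] at this
    exact this
  have ha : ∀ g, a g = e (ρ g (e.symm 1)) := fun g => by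
    rw [hσ, AddEquiv.apply_symm_apply, map_one, mul_one]
  have ha0 : ∀ g, a g ≠ 0 := fun g h => by
    rw [ha, EmbeddingLike.map_eq_zero_iff, EmbeddingLike.map_eq_zero_iff, EmbeddingLike.map_eq_zero_iff] at h
    exact one_ne_zero h
  have huniq : ∀ (g : G) (b : F) (τ : F ≃+* F), (∀ v, e (ρ g v) = b * τ (e v)) → b = a g ∧ τ = σ g := by
    intro g b τ hb
    have hbg : b = a g := by rw [ha, hb, AddEquiv.apply_symm_apply, map_one, mul_one]
    refine ⟨hbg, RingEquiv.ext fun x => mul_left_cancel₀ (ha0 g) ?_⟩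
    have := (hb (e.symm x)).symm.trans (hσ g (e.symm x))
    rwa [hbg, AddEquiv.apply_symm_apply] at this
  letI := ZMod.algebra F q
  let f : G →* Gal(F/ZMod q) :=
    { toFun := fun g => AlgEquiv.ofRingEquiv (f := σ g) fun x =>
        DFunLike.congr_fun (RingHom.ext_zmod ((σ g).toRingHom.comp (algebraMap (ZMod q) F)) (algebraMap (ZMod q) F)) x
      map_one' := by
        refine AlgEquiv.ext fun x => ?_
        have := (huniq 1 1 (RingEquiv.refl F) fun v => by rw [map_one, one_mul]; rfl).2
        show σ 1 x = x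
        rw [← this]; rfl
      map_mul' := fun g h => by
        refine AlgEquiv.ext fun x => ?_
        have := (huniq (g * h) (a g * σ g (a h)) ((σ h).trans (σ g)) fun v => by
          rw [map_mul]
          show e (ρ g (ρ h v)) = _
          rw [hσ, hσ, map_mul, mul_assoc]; rfl).2
        show σ (g * h) x = σ g (σ h x)
        rw [← this]; rfl }
  haveI : Finite Gal(F/ZMod q) := Finite.of_injective (fun τ : Gal(F/ZMod q) => (τ : F → F)) DFunLike.coe_injective
  haveI : IsCyclic f.range := isCyclic_of_injective f.range.subtype (subtype_injective _)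
  by_cases hr : 2 ∣ Nat.card f.range
  · exact index_two_of_cyclic_hom f hr
  -- the kernel is a group of multiplications
  have hker : ∀ g ∈ f.ker, ∀ v, e (ρ g v) = a g * e v := fun g hg v => by
    rw [hσ]
    exact congrArg _ (DFunLike.congr_fun (MonoidHom.mem_ker.1 hg) (e v))
  let m : f.ker →* F :=
    { toFun := fun g => a g
      map_one' := by
        show a ((1 : f.ker) : G) = 1
        rw [OneMemClass.coe_one, ha, map_one]; exact e.apply_symm_apply 1
      map_mul' := fun g h => by
        show a ((g * h : f.ker) : G) = a g * a h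
        rw [Subgroup.coe_mul, ha, map_mul]
        show e (ρ g (ρ h (e.symm 1))) = _
        rw [hker g g.2, ← ha] }
  haveI : IsCyclic f.ker := isCyclic_of_subgroup_isDomain m fun g h hgh => Subtype.ext <| hρ <|
    LinearEquiv.ext fun v => e.injective (by rw [hker g g.2, hker h h.2, show a g = a h from hgh])
  let P : Sylow 2 G := default
  have hPK : (P : Subgroup G) ≤ f.ker := fun x hx => by
    obtain ⟨k, hk⟩ := P.2 ⟨x, hx⟩
    have h1 : orderOf (f.rangeRestrict x) ∣ 2 ^ k := orderOf_dvd_of_pow_eq_one (by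
      rw [← map_pow, show x ^ 2 ^ k = 1 from congrArg Subtype.val hk, map_one])
    obtain ⟨i, -, hi⟩ := (Nat.dvd_prime_pow Nat.prime_two).1 h1
    rcases i with _ | i
    · rw [pow_zero, orderOf_eq_one_iff] at hi
      exact MonoidHom.mem_ker.2 (congrArg Subtype.val hi)
    · refine absurd (dvd_trans (hi ▸ dvd_pow_self 2 i.succ_ne_zero) (orderOf_dvd_natCard _)) hr
  haveI : IsCyclic P := isCyclic_of_injective (inclusion hPK) (inclusion_injective hPK)
  exact index_two_of_cyclic_sylow h2 P

end Cfsg.Agent.Lib.ZassSL25
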