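import Mathlib
import Cfsg.Agent.Lib.Thompson.PGroup
import Cfsg.Agent.Lib.PGroupFrattini
import Cfsg.Agent.Lib.Components.Cores

/-!
Abelian normal subgroups and critical subgroups of transitive linear groups.
-/

set_option autoImplicit false

namespace Cfsg.Agent.Lib.ZassSL25.Transitive

open Subgroup
open scoped commutatorElement

variable {q : ℕ} [Fact q.Prime] {V : Type*} [AddCommGroup V] [Module (ZMod q) V] [Finite V]
  {G : Type*} [Group G] [Finite G]

/-- The algebra spanned by the images of a subgroup. -/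
noncomputable def span (ρ : G →* (V ≃ₗ[ZMod q] V)) (A : Subgroup G) : Subalgebra (ZMod q) (Module.End (ZMod q) V) :=
  Algebra.adjoin (ZMod q) (Set.range fun a : A => (ρ a).toLinearMap)

omit [Finite V] [Finite G] in
theorem mem_span (ρ : G →* (V ≃ₗ[ZMod q] V)) {A : Subgroup G} {a : G} (ha : a ∈ A) :
    (ρ a).toLinearMap ∈ span ρ A :=
  Algebra.subset_adjoin ⟨⟨a, ha⟩, rfl⟩

omit [Finite V] [Finite G] in
theorem span_comm (ρ : G →* (V ≃ₗ[ZMod q] V)) {A : Subgroup G} [IsMulCommutative A] :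
    IsMulCommutative (span ρ A) := by
  refine Algebra.isMulCommutative_adjoin (ZMod q) ?_
  rintro _ ⟨a, rfl⟩ _ ⟨b, rfl⟩
  have h : (a : G) * b = b * a := congrArg Subtype.val (mul_comm' a b)
  show (ρ a * ρ b : V ≃ₗ[ZMod q] V).toLinearMap = (ρ b * ρ a : V ≃ₗ[ZMod q] V).toLinearMap
  rw [← map_mul, h, map_mul]

omit [Finite V] [Finite G] in
/-- An element centralising a subgroup commutes with its span. -/
theorem commute_of_centralizes (ρ : G →* (V ≃ₗ[ZMod q] V)) {A : Subgroup G} {d : G}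
    (hd : ∀ a ∈ A, Commute d a) {x : Module.End (ZMod q) V} (hx : x ∈ span ρ A) :
    (ρ d).toLinearMap * x = x * (ρ d).toLinearMap := by
  induction hx using Algebra.adjoin_induction with
  | mem x hx =>
    obtain ⟨a, rfl⟩ := hx
    show (ρ d * ρ a : V ≃ₗ[ZMod q] V).toLinearMap = (ρ a * ρ d : V ≃ₗ[ZMod q] V).toLinearMap
    rw [← map_mul, (hd a a.2).eq, map_mul]
  | algebraMap r => exact (Algebra.commutes r _).symm
  | add x y _ _ hx hy => rw [mul_add, add_mul, hx, hy]
  | mul x y _ _ hx hy => rw [← mul_assoc, hx, mul_assoc, hy, mul_assoc]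

/-- Conjugation by an element of the group. -/
noncomputable def cj (ρ : G →* (V ≃ₗ[ZMod q] V)) (g : G) :
    Module.End (ZMod q) V ≃ₐ[ZMod q] Module.End (ZMod q) V :=
  (ρ g).conjAlgEquiv (ZMod q)

omit [Finite V] [Finite G] in
theorem cj_apply (ρ : G →* (V ≃ₗ[ZMod q] V)) (g : G) (x : Module.End (ZMod q) V) (v : V) :
    cj ρ g x v = ρ g (x (ρ g⁻¹ v)) := by
  rw [map_inv]; rfl

omit [Finite V] [Finite G] in
theorem cj_mem (ρ : G →* (V ≃ₗ[ZMod q] V)) {A : Subgroup G} [A.Normal] (g : G) {x : Module.End (ZMod q) V}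
    (hx : x ∈ span ρ A) : cj ρ g x ∈ span ρ A := by
  induction hx using Algebra.adjoin_induction with
  | mem x hx =>
    obtain ⟨a, rfl⟩ := hx
    have e : cj ρ g (ρ a).toLinearMap = (ρ (g * a * g⁻¹)).toLinearMap := LinearMap.ext fun v => by
      rw [cj_apply, map_mul, map_mul]; rfl
    rw [e]
    exact mem_span ρ (‹A.Normal›.conj_mem a a.2 g)
  | algebraMap r => rw [AlgEquiv.commutes]; exact Subalgebra.algebraMap_mem _ r
  | add x y _ _ hx hy => rw [map_add]; exact add_mem hx hy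
  | mul x y _ _ hx hy => rw [map_mul]; exact mul_mem hx hy

/-- In a transitive linear group the span of an abelian normal subgroup acts without zero divisors. -/
theorem injective_of_mem_span (ρ : G →* (V ≃ₗ[ZMod q] V))
    (htrans : ∀ v w : V, v ≠ 0 → w ≠ 0 → ∃ g : G, ρ g v = w) (A : Subgroup G) [A.Normal] [IsMulCommutative A]
    {x : Module.End (ZMod q) V} (hx : x ∈ span ρ A) {v : V} (hv : v ≠ 0) (hxv : x v = 0) : x = 0 := by
  classical
  haveI := span_comm ρ (A := A)
  have hcomm : ∀ a ∈ span ρ A, ∀ b ∈ span ρ A, ∀ u : V, a (b u) = b (a u) := fun a ha b hb u => by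
    have := congrArg Subtype.val (mul_comm' (⟨a, ha⟩ : span ρ A) ⟨b, hb⟩)
    exact congrArg (fun f : Module.End (ZMod q) V => f u) this
  -- a minimal invariant submodule
  obtain ⟨W, ⟨hW0, hWinv⟩, hWmin⟩ := (Set.toFinite
    {W : Submodule (ZMod q) V | W ≠ ⊥ ∧ ∀ a ∈ span ρ A, ∀ w ∈ W, a w ∈ W}).exists_minimal
    ⟨⊤, fun e => hv ((Submodule.mem_bot (ZMod q)).1 (e ▸ trivial : v ∈ (⊥ : Submodule (ZMod q) V))),
      fun _ _ _ _ => trivial⟩
  obtain ⟨w, hwW, hw⟩ := (Submodule.ne_bot_iff W).1 hW0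
  have hP : ∀ u : V, u ≠ 0 → ∀ a ∈ span ρ A, a u ≠ 0 → ∃ b ∈ span ρ A, b (a u) = u := by
    have hPw : ∀ a ∈ span ρ A, a w ≠ 0 → ∃ b ∈ span ρ A, b (a w) = w := by
      intro a ha haw
      let ev : span ρ A →ₗ[ZMod q] V :=
        { toFun := fun b => b.1 (a w)
          map_add' := fun _ _ => rfl
          map_smul' := fun _ _ => rfl }
      have hle : LinearMap.range ev ≤ W := by
        rintro _ ⟨b, rfl⟩
        exact hWinv b b.2 _ (hWinv a ha w hwW)
      have hge := hWmin (y := LinearMap.range ev) ⟨?_, ?_⟩ hle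
      · obtain ⟨b, hb⟩ := hge hwW
        exact ⟨b, b.2, hb⟩
      · exact fun e => haw ((Submodule.mem_bot (ZMod q)).1 (e ▸ ⟨1, rfl⟩ : a w ∈ (⊥ : Submodule (ZMod q) V)))
      · rintro c hc _ ⟨b, rfl⟩
        exact ⟨⟨c * b.1, mul_mem hc b.2⟩, rfl⟩
    intro u hu a ha hau
    obtain ⟨g, rfl⟩ := htrans w u hw hu
    have hinv : ρ g⁻¹ (ρ g w) = w := by
      show (ρ g⁻¹ * ρ g) w = w
      rw [← map_mul, inv_mul_cancel, map_one]; rfl
    have hinv' : ∀ t, ρ g (ρ g⁻¹ t) = t := fun t => by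
      show (ρ g * ρ g⁻¹) t = t
      rw [← map_mul, mul_inv_cancel, map_one]; rfl
    have ha' : cj ρ g⁻¹ a w = ρ g⁻¹ (a (ρ g w)) := by rw [cj_apply, inv_inv]
    obtain ⟨b, hb, hbw⟩ := hPw _ (cj_mem ρ g⁻¹ ha) (fun e => hau (by
      rw [ha'] at e
      exact (ρ g⁻¹).map_eq_zero_iff.1 e))
    refine ⟨cj ρ g b, cj_mem ρ g hb, ?_⟩
    rw [cj_apply, ← ha', hbw]
  by_contra hx0
  obtain ⟨y, hy⟩ : ∃ y, x y ≠ 0 := by
    by_contra hne
    push Not at hne
    exact hx0 (LinearMap.ext hne)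
  have hy0 : y ≠ 0 := fun e => hy (by rw [e, map_zero])
  have hz : v + y ≠ 0 := fun e => hy (by
    have := congrArg x e
    rwa [map_add, hxv, zero_add, map_zero] at this)
  have hxz : x (v + y) = x y := by rw [map_add, hxv, zero_add]
  obtain ⟨t, ht, e1⟩ := hP (v + y) hz x hx (by rwa [hxz])
  rw [hxz] at e1
  obtain ⟨t', ht', e2⟩ := hP y hy0 x hx hy
  -- `v = (t x - 1) y` is annihilated by `x`
  have h1 : x (t (x y)) = x y := by rw [e1, hxz]
  have h2 : t (x y) = y := by
    have := congrArg t' h1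
    rwa [hcomm t' ht' x hx, hcomm t' ht' t ht, e2, hcomm x hx t ht] at this
  exact hv (by rw [h2] at e1; simpa using e1.symm)

/-- The span of an abelian normal subgroup of a transitive linear group is a field. -/
theorem isField_span [Nontrivial V] (ρ : G →* (V ≃ₗ[ZMod q] V))
    (htrans : ∀ v w : V, v ≠ 0 → w ≠ 0 → ∃ g : G, ρ g v = w) (A : Subgroup G) [A.Normal] [IsMulCommutative A] :
    IsField (span ρ A) := by
  haveI := span_comm ρ (A := A)
  haveI : Finite (Module.End (ZMod q) V) := Finite.of_injective _ LinearMap.coe_injective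
  obtain ⟨v, hv⟩ := exists_ne (0 : V)
  haveI : Nontrivial (span ρ A) := ⟨⟨0, 1, fun e => hv
    (congrArg (fun b : span ρ A => b.1 v) e).symm⟩⟩
  refine ⟨exists_pair_ne _, mul_comm', fun {x} hx => ?_⟩
  have hinj : Function.Injective fun y : span ρ A => x * y := fun y z h => by
    refine sub_eq_zero.1 ?_
    by_contra hne
    obtain ⟨u, hu⟩ : ∃ u, (y - z : span ρ A).1 u ≠ 0 := by
      by_contra hno
      push Not at hno
      exact hne (Subtype.ext (LinearMap.ext hno))
    refine hx (Subtype.ext (injective_of_mem_span ρ htrans A x.2 hu ?_))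
    have h0 : x * (y - z) = 0 := by
      rw [mul_sub]; exact sub_eq_zero.2 h
    exact congrArg (fun b : span ρ A => b.1 u) h0
  obtain ⟨y, hy⟩ := (Finite.injective_iff_surjective.1 hinj) 1
  exact ⟨y, hy⟩

/-- An abelian normal subgroup of a transitive linear group is semiregular. -/
theorem semiregular (ρ : G →* (V ≃ₗ[ZMod q] V)) (hρ : Function.Injective ρ)
    (htrans : ∀ v w : V, v ≠ 0 → w ≠ 0 → ∃ g : G, ρ g v = w) (A : Subgroup G) [A.Normal] [IsMulCommutative A]
    {v : V} (hv : v ≠ 0) {a : G} (ha : a ∈ A) (h : ρ a v = v) : a = 1 := by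
  have h0 : (ρ a).toLinearMap - 1 = 0 := injective_of_mem_span ρ htrans A
    (sub_mem (mem_span ρ ha) (one_mem _)) hv (by simp [h])
  refine hρ (LinearEquiv.toLinearMap_injective ?_)
  rw [map_one]
  exact sub_eq_zero.1 h0

/-- An abelian normal subgroup of a transitive linear group is cyclic. -/
theorem isCyclic_of_normal [Nontrivial V] (ρ : G →* (V ≃ₗ[ZMod q] V)) (hρ : Function.Injective ρ)
    (htrans : ∀ v w : V, v ≠ 0 → w ≠ 0 → ∃ g : G, ρ g v = w) (A : Subgroup G) [A.Normal] [IsMulCommutative A] :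
    IsCyclic A := by
  letI : Field (span ρ A) := (isField_span ρ htrans A).toField
  let m : A →* span ρ A :=
    { toFun := fun a => ⟨_, mem_span ρ a.2⟩
      map_one' := Subtype.ext (LinearMap.ext fun u => by simp)
      map_mul' := fun a b => Subtype.ext (by simp) }
  exact isCyclic_of_subgroup_isDomain m fun a b h =>
    Subtype.ext (hρ (LinearEquiv.toLinearMap_injective (congrArg Subtype.val h)))

/-- Elements of order a power of a prime exceeding the dimension centralise abelian normal subgroups. -/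
theorem commute_of_large_prime [Nontrivial V] (ρ : G →* (V ≃ₗ[ZMod q] V)) (hρ : Function.Injective ρ)
    (htrans : ∀ v w : V, v ≠ 0 → w ≠ 0 → ∃ g : G, ρ g v = w) (A : Subgroup G) [A.Normal] [IsMulCommutative A]
    {r e : ℕ} (hr : r.Prime) (hrn : Module.finrank (ZMod q) V < r) {g : G} (hg : orderOf g = r ^ e) {a : G}
    (ha : a ∈ A) : Commute g a := by
  letI : Field (span ρ A) := (isField_span ρ htrans A).toField
  haveI : Finite (Module.End (ZMod q) V) := Finite.of_injective _ LinearMap.coe_injective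
  let Ψ : G →* ((span ρ A) ≃ₐ[ZMod q] (span ρ A)) :=
    { toFun := fun h => AlgEquiv.ofBijective
        (((cj ρ h).toAlgHom.comp (span ρ A).val).codRestrict (span ρ A) fun x => cj_mem ρ h x.2)
        (Finite.injective_iff_bijective.1 fun x y e => Subtype.ext ((cj ρ h).injective (congrArg Subtype.val e)))
      map_one' := AlgEquiv.ext fun x => Subtype.ext (LinearMap.ext fun v => by
        show cj ρ 1 x.1 v = x.1 v
        rw [cj_apply, inv_one, map_one]; rfl)
      map_mul' := fun h k => AlgEquiv.ext fun x => Subtype.ext (LinearMap.ext fun v => by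
        show cj ρ (h * k) x.1 v = cj ρ h (cj ρ k x.1) v
        rw [cj_apply, cj_apply, cj_apply, mul_inv_rev, map_mul, map_mul]; rfl) }
  obtain ⟨v, hv⟩ := exists_ne (0 : V)
  have hd : Module.finrank (ZMod q) (span ρ A) ≤ Module.finrank (ZMod q) V := by
    let ev : span ρ A →ₗ[ZMod q] V :=
      { toFun := fun b => b.1 v
        map_add' := fun _ _ => rfl
        map_smul' := fun _ _ => rfl }
    refine LinearMap.finrank_le_finrank_of_injective (f := ev) ((injective_iff_map_eq_zero ev).2 fun b hb => ?_)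
    exact Subtype.ext (injective_of_mem_span ρ htrans A b.2 hv hb)
  have hcard : Nat.card ((span ρ A) ≃ₐ[ZMod q] (span ρ A)) = Module.finrank (ZMod q) (span ρ A) :=
    IsGalois.card_aut_eq_finrank (ZMod q) (span ρ A)
  have hpos : 0 < Module.finrank (ZMod q) (span ρ A) := Module.finrank_pos
  have h1 : orderOf (Ψ g) = 1 := by
    refine Nat.dvd_one.1 ?_
    have hcop : Nat.Coprime (r ^ e) (Nat.card ((span ρ A) ≃ₐ[ZMod q] (span ρ A))) := by
      refine Nat.Coprime.pow_left _ (hr.coprime_iff_not_dvd.2 fun hdvd => ?_)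
      rw [hcard] at hdvd
      have := Nat.le_of_dvd hpos hdvd
      omega
    rw [← hcop.gcd_eq_one]
    exact Nat.dvd_gcd (hg ▸ orderOf_map_dvd Ψ g) (orderOf_dvd_natCard _)
  have h2 := congrArg (fun σ : (span ρ A) ≃ₐ[ZMod q] (span ρ A) => (σ ⟨_, mem_span ρ ha⟩).1) (orderOf_eq_one_iff.1 h1)
  refine hρ (LinearEquiv.ext fun u => ?_)
  rw [map_mul, map_mul]
  show ρ g (ρ a u) = ρ a (ρ g u)
  have h3 : cj ρ g (ρ a).toLinearMap (ρ g u) = ρ a (ρ g u) :=
    congrArg (fun f : Module.End (ZMod q) V => f (ρ g u)) h2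
  rw [← h3, cj_apply]
  show _ = ρ g (ρ a ((ρ g⁻¹ * ρ g) u))
  rw [← map_mul, inv_mul_cancel, map_one]
  rfl

/-- A class two configuration over an abelian normal subgroup is bounded by the square of the dimension. -/
theorem relIndex_le_sq [Nontrivial V] (ρ : G →* (V ≃ₗ[ZMod q] V)) (hρ : Function.Injective ρ)
    (htrans : ∀ v w : V, v ≠ 0 → w ≠ 0 → ∃ g : G, ρ g v = w) (Z D : Subgroup G) [Z.Normal] [IsMulCommutative Z]
    (hcen : ∀ d ∈ D, ∀ z ∈ Z, Commute d z) (hcomm : ∀ d ∈ D, ∀ x ∈ D, d * x * d⁻¹ * x⁻¹ ∈ Z)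
    (hmax : ∀ x ∈ D, (∀ d ∈ D, Commute d x) → x ∈ Z) :
    Z.relIndex D ≤ Module.finrank (ZMod q) V ^ 2 ∧
      (Z.relIndex D = Module.finrank (ZMod q) V ^ 2 →
        ∀ g : G, (∀ d ∈ D, Commute g d) → ∀ h : G, Commute g h) := by
  classical
  letI := Fintype.ofFinite (D ⧸ Z.subgroupOf D)
  let x : D ⧸ Z.subgroupOf D → G := fun i => (Quotient.out i : D)
  have hxD : ∀ i, x i ∈ D := fun i => (Quotient.out i : D).2
  haveI := span_comm ρ (A := Z)
  letI : Field (span ρ Z) := (isField_span ρ htrans Z).toField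
  -- minimal relations do not exist
  have hind : ∀ (S : Finset (D ⧸ Z.subgroupOf D)) (c : D ⧸ Z.subgroupOf D → span ρ Z),
      (∑ i ∈ S, (c i).1 * (ρ (x i)).toLinearMap) = 0 → ∀ i ∈ S, c i = 0 := by
    intro S
    induction S using Finset.strongInduction with
    | _ S ih =>
      intro c hc
      by_contra hne
      push Not at hne
      obtain ⟨i₀, hi₀, hci₀⟩ := hne
      by_cases hone : ∀ i ∈ S, i = i₀
      · rw [Finset.sum_eq_single_of_mem i₀ hi₀ fun i hi hne' => absurd (hone i hi) hne'] at hc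
        refine hci₀ (Subtype.ext (LinearMap.ext fun u => ?_))
        have := congrArg (fun f : Module.End (ZMod q) V => f (ρ (x i₀)⁻¹ u)) hc
        have hinv : ρ (x i₀) (ρ (x i₀)⁻¹ u) = u := by
          show (ρ (x i₀) * ρ (x i₀)⁻¹) u = u
          rw [← map_mul, mul_inv_cancel, map_one]; rfl
        simpa [hinv] using this
      push Not at hone
      obtain ⟨i₁, hi₁, h10⟩ := hone
      -- separate the two cosets by a commutator
      obtain ⟨d, hd, hnc⟩ : ∃ d ∈ D, ¬ Commute d ((x i₀)⁻¹ * x i₁) := by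
        by_contra hno
        push Not at hno
        refine h10.symm ?_
        have hmem : (Quotient.out i₀ : D)⁻¹ * Quotient.out i₁ ∈ Z.subgroupOf D :=
          hmax _ (mul_mem (inv_mem (hxD i₀)) (hxD i₁)) hno
        rw [← QuotientGroup.out_eq' i₀, ← QuotientGroup.out_eq' i₁]
        exact QuotientGroup.eq.2 hmem
      let z : D ⧸ Z.subgroupOf D → span ρ Z := fun i => ⟨_, mem_span ρ (hcomm d hd _ (hxD i))⟩
      have hz : ∀ i, (c i).1 * (z i).1 * (ρ (x i)).toLinearMap =
          cj ρ d ((c i).1 * (ρ (x i)).toLinearMap) := fun i => by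
        have hc1 : cj ρ d (c i).1 = (c i).1 := LinearMap.ext fun v => by
          rw [cj_apply]
          have := congrArg (fun f : Module.End (ZMod q) V => f (ρ d⁻¹ v))
            (commute_of_centralizes ρ (hcen d hd) (c i).2)
          refine this.trans ?_
          show (c i).1 ((ρ d * ρ d⁻¹) v) = _
          rw [← map_mul, mul_inv_cancel, map_one]; rfl
        have hc2 : cj ρ d (ρ (x i)).toLinearMap = (z i).1 * (ρ (x i)).toLinearMap := LinearMap.ext fun v => by
          rw [cj_apply]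
          show (ρ d * ρ (x i) * ρ d⁻¹) v = (ρ (d * x i * d⁻¹ * (x i)⁻¹) * ρ (x i)) v
          simp only [← map_mul]
          congr 2
          group
        rw [map_mul, hc1, hc2, mul_assoc]
      let c' : D ⧸ Z.subgroupOf D → span ρ Z := fun i => c i * z i - c i * z i₀
      have hc' : (∑ i ∈ S, (c' i).1 * (ρ (x i)).toLinearMap) = 0 := by
        have e1 : ∀ i, (c' i).1 * (ρ (x i)).toLinearMap = cj ρ d ((c i).1 * (ρ (x i)).toLinearMap) -
            (z i₀).1 * ((c i).1 * (ρ (x i)).toLinearMap) := fun i => by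
          rw [← hz i, show c' i = c i * z i - z i₀ * c i from congrArg (c i * z i - ·) (mul_comm' _ _)]
          simp [sub_mul, mul_assoc]
        rw [Finset.sum_congr rfl fun i _ => e1 i, Finset.sum_sub_distrib, ← map_sum, ← Finset.mul_sum, hc,
          map_zero, mul_zero, sub_self]
      have h0 : c' i₀ = 0 := sub_self _
      have hall : ∀ i ∈ S.erase i₀, c' i = 0 := ih _ (Finset.erase_ssubset hi₀) c' (by
        rw [← Finset.add_sum_erase _ _ hi₀, h0] at hc'
        simpa using hc')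
      have h1 : c i₁ * (z i₁ - z i₀) = 0 := by
        rw [mul_sub]
        exact hall i₁ (Finset.mem_erase.2 ⟨h10, hi₁⟩)
      have hz10 : z i₁ - z i₀ ≠ 0 := by
        intro e
        have e' : d * x i₁ * d⁻¹ * (x i₁)⁻¹ = d * x i₀ * d⁻¹ * (x i₀)⁻¹ :=
          hρ (LinearEquiv.toLinearMap_injective (congrArg Subtype.val (sub_eq_zero.1 e)))
        refine hnc ?_
        set w := d * x i₁ * d⁻¹ * (x i₁)⁻¹
        have hwZ : w ∈ Z := hcomm d hd _ (hxD i₁)
        have hwx := (hcen _ (inv_mem (hxD i₀)) w hwZ).eq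
        have ha : d * x i₁ * d⁻¹ = w * x i₁ := by simp [w]
        have hb : d * x i₀ * d⁻¹ = w * x i₀ := by rw [e']; simp
        show d * ((x i₀)⁻¹ * x i₁) = (x i₀)⁻¹ * x i₁ * d
        refine mul_inv_eq_iff_eq_mul.1 ?_
        calc d * ((x i₀)⁻¹ * x i₁) * d⁻¹ = (d * x i₀ * d⁻¹)⁻¹ * (d * x i₁ * d⁻¹) := by group
          _ = (x i₀)⁻¹ * x i₁ := by rw [ha, hb]; group
      have hci₁ : c i₁ = 0 := (mul_eq_zero.1 h1).resolve_right hz10
      refine hci₀ (ih _ (Finset.erase_ssubset hi₁) c ?_ i₀ (Finset.mem_erase.2 ⟨h10.symm, hi₀⟩))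
      rw [← Finset.add_sum_erase _ _ hi₁, hci₁] at hc
      simpa using hc
  -- independence over the prime field
  have hli : LinearIndependent (ZMod q) fun i : D ⧸ Z.subgroupOf D => (ρ (x i)).toLinearMap := by
    refine Fintype.linearIndependent_iff.2 fun c hc i => ?_
    have := hind Finset.univ (fun j => algebraMap (ZMod q) (span ρ Z) (c j)) (by
      rw [← hc]
      refine Finset.sum_congr rfl fun j _ => ?_
      rw [Algebra.smul_def]; rfl) i (Finset.mem_univ i)
    exact (map_eq_zero _).1 this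
  have hdim : Module.finrank (ZMod q) (Module.End (ZMod q) V) = Module.finrank (ZMod q) V ^ 2 := by
    rw [Module.finrank_linearMap, sq]
  have hle := hli.fintype_card_le_finrank
  rw [← Nat.card_eq_fintype_card, hdim] at hle
  refine ⟨hle, fun heq g hg h => ?_⟩
  have hspan := hli.span_eq_top_of_card_eq_finrank' (by rw [← Nat.card_eq_fintype_card, hdim]; exact heq)
  have hall : ∀ f : Module.End (ZMod q) V, (ρ g).toLinearMap * f = f * (ρ g).toLinearMap := fun f => by
    have hf : f ∈ Submodule.span (ZMod q) (Set.range fun i : D ⧸ Z.subgroupOf D => (ρ (x i)).toLinearMap) :=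
      hspan ▸ trivial
    induction hf using Submodule.span_induction with
    | mem y hy =>
      obtain ⟨i, rfl⟩ := hy
      show (ρ g * ρ (x i) : V ≃ₗ[ZMod q] V).toLinearMap = (ρ (x i) * ρ g : V ≃ₗ[ZMod q] V).toLinearMap
      rw [← map_mul, (hg _ (hxD i)).eq, map_mul]
    | zero => rw [mul_zero, zero_mul]
    | add a b _ _ ha hb => rw [mul_add, add_mul, ha, hb]
    | smul t a _ ha => rw [mul_smul_comm, smul_mul_assoc, ha]
  refine hρ (LinearEquiv.ext fun u => ?_)
  rw [map_mul, map_mul]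
  exact congrArg (fun f : Module.End (ZMod q) V => f u) (hall (ρ h).toLinearMap)

/-- Critical subgroups of the cores. -/
theorem exists_critical_core (s : ℕ) [Fact s.Prime] :
    ∃ Z D : Subgroup G, Z.Normal ∧ D.Normal ∧ IsMulCommutative Z ∧ Z ≤ D ∧ D ≤ Cfsg.pCore s G ∧
      (∀ d ∈ D, ∀ z ∈ Z, Commute d z) ∧ (∀ d ∈ D, ∀ x ∈ D, d * x * d⁻¹ * x⁻¹ ∈ Z) ∧
      (∀ x ∈ D, (∀ d ∈ D, Commute d x) → x ∈ Z) ∧ (∀ d ∈ D, d ^ s ∈ Z) ∧
      ∀ x ∈ Cfsg.pCore s G, (∀ d ∈ D, Commute d x) → x ∈ Z := by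
  haveI : (Cfsg.pCore s G).Normal := inferInstance
  have hP : IsPGroup s (Cfsg.pCore s G) := Components.pCore_isPGroup s
  set O := Cfsg.pCore s G
  obtain ⟨H, hHc, hfr, hcom, hcen⟩ := Thompson.exists_critical (p := s) hP
  haveI := hHc
  haveI : (H ⊓ centralizer (H : Set O)).Normal := inferInstance
  have hHn : (H.map O.subtype).Normal := inferInstance
  have hZc : (H ⊓ centralizer (H : Set O)).Characteristic := by
    refine characteristic_iff_le_comap.mpr fun φ h hh => ?_
    have hH' : ∀ x, φ x ∈ H ↔ x ∈ H := fun x => by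
      conv_rhs => rw [← hHc.fixed φ]
      rfl
    refine mem_inf.mpr ⟨(hH' h).mpr hh.1, ?_⟩
    show φ h ∈ centralizer (H : Set O)
    rw [mem_centralizer_iff]
    intro a ha
    obtain ⟨b, rfl⟩ := φ.surjective a
    rw [← map_mul, mem_centralizer_iff.mp hh.2 b ((hH' b).mp ha), map_mul]
  haveI := hZc
  refine ⟨(H ⊓ centralizer (H : Set O)).map O.subtype, H.map O.subtype, inferInstance, hHn, ?_,
    map_mono inf_le_left, map_subtype_le H, ?_, ?_, ?_, ?_, ?_⟩
  · refine ⟨⟨?_⟩⟩
    rintro ⟨_, a, ha, rfl⟩ ⟨_, b, hb, rfl⟩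
    exact Subtype.ext (congrArg O.subtype (mem_centralizer_iff.1 hb.2 a ha.1))
  · rintro _ ⟨d, hd, rfl⟩ _ ⟨z, hz, rfl⟩
    exact congrArg O.subtype (mem_centralizer_iff.1 hz.2 d hd)
  · rintro _ ⟨d, hd, rfl⟩ _ ⟨x, hx, rfl⟩
    refine ⟨d * x * d⁻¹ * x⁻¹, ?_, by simp⟩
    have := hcom (commutator_mem_commutator hd (mem_top x))
    rwa [commutatorElement_def] at this
  · rintro _ ⟨x, hx, rfl⟩ hall
    exact ⟨x, ⟨hx, mem_centralizer_iff.2 fun d hd => Subtype.ext (hall _ ⟨d, hd, rfl⟩).eq⟩, rfl⟩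
  · rintro _ ⟨d, hd, rfl⟩
    refine ⟨d ^ s, ⟨pow_mem hd s, hfr ?_⟩, map_pow _ _ _⟩
    exact ⟨⟨d, hd⟩ ^ s, PGroupFrattini.pow_mem_frattini (hP.to_subgroup H) ⟨d, hd⟩, rfl⟩
  · intro x hx hall
    have hxC : (⟨x, hx⟩ : O) ∈ centralizer (H : Set O) :=
      mem_centralizer_iff.2 fun d hd => Subtype.ext (hall _ ⟨d, hd, rfl⟩).eq
    exact ⟨⟨x, hx⟩, ⟨hcen hxC, hxC⟩, rfl⟩

/-- A coprime element acting as a translation by fixed elements acts trivially. -/
theorem commute_of_step {g x : G} {r e s : ℕ} (hr : r.Prime) (hs : s.Prime) (hrs : r ≠ s) (hg : orderOf g = r ^ e)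
    {c : G} (hgx : g * x * g⁻¹ = x * c) (hc : Commute g c) (hcs : ∃ k, c ^ (s ^ k) = 1) : Commute g x := by
  have hit : ∀ i : ℕ, g ^ i * x * (g ^ i)⁻¹ = x * c ^ i := by
    intro i
    induction i with
    | zero => simp
    | succ i ih =>
      calc g ^ (i + 1) * x * (g ^ (i + 1))⁻¹ = g * (g ^ i * x * (g ^ i)⁻¹) * g⁻¹ := by rw [pow_succ']; group
        _ = g * x * (c ^ i * g⁻¹) := by rw [ih]; group
        _ = g * x * g⁻¹ * c ^ i := by rw [← ((hc.inv_left).pow_right i).eq]; group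
        _ = x * c ^ (i + 1) := by rw [hgx, mul_assoc, pow_succ']
  have h1 := hit (r ^ e)
  rw [← hg, pow_orderOf_eq_one, one_mul, inv_one, mul_one, hg, eq_comm, mul_eq_left] at h1
  obtain ⟨k, hk⟩ := hcs
  have hc1 : c = 1 := by
    have h2 := Nat.dvd_gcd (orderOf_dvd_of_pow_eq_one h1) (orderOf_dvd_of_pow_eq_one hk)
    rw [((Nat.coprime_primes hr hs).2 hrs).pow e k, Nat.dvd_one, orderOf_eq_one_iff] at h2
    exact h2
  rw [hc1, mul_one, mul_inv_eq_iff_eq_mul] at hgx
  exact hgx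

end Cfsg.Agent.Lib.ZassSL25.Transitive
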